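import Mathlib
import Cfsg.Agent.Fusion.Alperin.Criteria
import Cfsg.Agent.FusAut.Basic

/-!
Supersoluble fusion systems: strongly closed series with steps of prime order and their consequences.
-/

set_option autoImplicit false

namespace CfsgLib.Fus.Supersoluble

open Cfsg Cfsg.FusionSystem CfsgLib.Fus

variable {Ω : Type*} [Group Ω] {S : Subgroup Ω}

/-- A series of strongly closed subgroups with cyclic steps. -/
def HasChain (F : Cfsg.FusionSystem S) : Prop :=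
  ∃ (m : ℕ) (c : Fin (m + 1) → Subgroup Ω), c 0 = ⊥ ∧ c (Fin.last m) = S ∧
    (∀ i : Fin (m + 1), F.StronglyClosed (c i)) ∧
    ∀ i : Fin m, c i.castSucc ≤ c i.succ ∧ ∃ x ∈ S, c i.succ = c i.castSucc ⊔ Subgroup.zpowers x

/-- A series of strongly closed subgroups from `1` to `T` with steps of order dividing `p`. -/
structure Steps (F : Cfsg.FusionSystem S) (p : ℕ) (T : Subgroup Ω) (n : ℕ) (L : ℕ → Subgroup Ω) :
    Prop where
  bot : L 0 = ⊥
  top : ∀ k, n ≤ k → L k = T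
  mono : Monotone L
  closed : ∀ k, F.StronglyClosed (L k)
  step : ∀ k < n, ∀ y ∈ L (k + 1), y ∉ L k →
    y ^ p ∈ L k ∧ ∀ z ∈ L (k + 1), ∃ t : ℕ, z * (y ^ t)⁻¹ ∈ L k

theorem stronglyClosed_bot (F : Cfsg.FusionSystem S) : F.StronglyClosed ⊥ := by
  refine ⟨bot_le, fun R hR φ hφ x => ?_⟩
  have : x = 1 := Subtype.ext (Subgroup.mem_bot.1 (hR x.2))
  rw [this, map_one]
  exact one_mem _

theorem normal_subgroupOf {F : Cfsg.FusionSystem S} {A B : Subgroup Ω} (hA : F.StronglyClosed A)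
    (hB : B ≤ S) : (A.subgroupOf B).Normal :=
  ⟨fun a ha g => (Subgroup.mem_normalizer_iff.1
    (Fusion.Alperin.le_normalizer_of_stronglyClosed hA (hB g.2)) _).1 ha⟩

/-- The elements of `B` whose `m`-th power lies in `A`. -/
def rootSet (A B : Subgroup Ω) (m : ℕ) : Set Ω := {y | y ∈ B ∧ y ^ m ∈ A}

theorem exists_steps_of_cyclic [Finite S] {p : ℕ} [hp : Fact p.Prime] (hS : IsPGroup p S)
    {F : Cfsg.FusionSystem S} {A B : Subgroup Ω} (hA : F.StronglyClosed A) (hB : F.StronglyClosed B)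
    (hAB : A ≤ B) {x : Ω} (hx : x ∈ S) (hgen : B = A ⊔ Subgroup.zpowers x) {n : ℕ}
    {L : ℕ → Subgroup Ω} (hL : Steps F p A n L) :
    ∃ (n' : ℕ) (L' : ℕ → Subgroup Ω), Steps F p B n' L' := by
  classical
  haveI := normal_subgroupOf hA hB.1
  haveI : Finite B := finite_of_le hB.1
  let N := A.subgroupOf B
  let π : B →* B ⧸ N := QuotientGroup.mk' N
  have hπ : ∀ y : B, π y = 1 ↔ (y : Ω) ∈ A := fun y => by
    rw [QuotientGroup.mk'_apply, QuotientGroup.eq_one_iff]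
    rfl
  set xB : B := ⟨x, hgen ▸ Subgroup.mem_sup_right (Subgroup.mem_zpowers x)⟩
  have hcyc : IsCyclic (B ⧸ N) := by
    refine ⟨⟨π xB, fun q => ?_⟩⟩
    obtain ⟨y, rfl⟩ := QuotientGroup.mk'_surjective N q
    have hxN : Subgroup.zpowers x ≤ Subgroup.normalizer (A : Set Ω) :=
      Subgroup.zpowers_le.2 (Fusion.Alperin.le_normalizer_of_stronglyClosed hA hx)
    have hy : (y : Ω) ∈ ((A ⊔ Subgroup.zpowers x : Subgroup Ω) : Set Ω) := hgen ▸ y.2
    rw [Subgroup.coe_mul_of_right_le_normalizer_left A (Subgroup.zpowers x) hxN] at hy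
    obtain ⟨a, ha, b, hb, hab⟩ := hy
    obtain ⟨i, rfl⟩ := Subgroup.mem_zpowers_iff.1 hb
    refine ⟨i, ?_⟩
    have he : y = (⟨a, hAB ha⟩ : B) * xB ^ i := Subtype.ext (by simpa using hab.symm)
    rw [he, map_mul, map_zpow, (hπ ⟨a, hAB ha⟩).2 ha, one_mul]
  have hcomm : ∀ a b : B ⧸ N, a * b = b * a := by
    letI := hcyc.commGroup
    exact fun a b => mul_comm a b
  have hmul : ∀ (m : ℕ) {y z : Ω}, y ∈ rootSet A B m → z ∈ rootSet A B m → y * z ∈ rootSet A B m := by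
    rintro m y z ⟨hy, hym⟩ ⟨hz, hzm⟩
    refine ⟨mul_mem hy hz, ?_⟩
    have h : π ((⟨y, hy⟩ * ⟨z, hz⟩ : B) ^ m) = 1 := by
      rw [map_pow, map_mul, Commute.mul_pow (hcomm _ _), ← map_pow, ← map_pow,
        (hπ (⟨y, hy⟩ ^ m)).2 (by simpa using hym), (hπ (⟨z, hz⟩ ^ m)).2 (by simpa using hzm), one_mul]
    simpa using (hπ _).1 h
  let D : ℕ → Subgroup Ω := fun j =>
    { carrier := rootSet A B (p ^ j)
      one_mem' := ⟨one_mem _, by rw [one_pow]; exact one_mem _⟩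
      mul_mem' := fun hy hz => hmul _ hy hz
      inv_mem' := fun hy => ⟨inv_mem hy.1, by rw [inv_pow]; exact inv_mem hy.2⟩ }
  have hD : ∀ j y, y ∈ D j ↔ y ∈ B ∧ y ^ (p ^ j) ∈ A := fun _ _ => Iff.rfl
  have hD0 : D 0 = A := by
    ext y
    rw [hD, pow_zero, pow_one]
    exact ⟨fun h => h.2, fun h => ⟨hAB h, h⟩⟩
  have hDmono : Monotone D := monotone_nat_of_le_succ fun j y hy => by
    rw [hD] at hy ⊢
    refine ⟨hy.1, ?_⟩
    rw [pow_succ, pow_mul]
    exact pow_mem hy.2 _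
  obtain ⟨s, hs⟩ : ∃ s : ℕ, ∀ j, s ≤ j → D j = B := by
    obtain ⟨e, he⟩ := IsPGroup.iff_card.1 hS
    refine ⟨e, fun j hj => le_antisymm (fun y hy => hy.1) fun y hy => ⟨hy, ?_⟩⟩
    have h1 : (⟨y, hB.1 hy⟩ : S) ^ (p ^ j) = 1 :=
      orderOf_dvd_iff_pow_eq_one.1 ((orderOf_dvd_natCard _).trans (he ▸ pow_dvd_pow p hj))
    have : y ^ (p ^ j) = 1 := by simpa using congrArg Subtype.val h1
    rw [this]
    exact one_mem _
  have hDcl : ∀ j, F.StronglyClosed (D j) := by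
    refine fun j => ⟨fun y hy => hB.1 hy.1, fun R hR φ hφ y => ?_⟩
    refine ⟨hB.2 R (fun r hr => (hR hr).1) φ hφ y, ?_⟩
    have h := Fusion.Alperin.map_mem_of_stronglyClosed hA hφ (x := y ^ (p ^ j))
      (by simpa using (hR y.2).2)
    rwa [map_pow] at h
  have hDstep : ∀ j, ∀ y ∈ D (j + 1), y ∉ D j →
      y ^ p ∈ D j ∧ ∀ z ∈ D (j + 1), ∃ t : ℕ, z * (y ^ t)⁻¹ ∈ D j := by
    intro j y hy hyn
    have hsucc : ∀ w ∈ D (j + 1), w ^ p ∈ D j := fun w hw => ⟨pow_mem hw.1 _, by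
      rw [← pow_mul, ← pow_succ']; exact hw.2⟩
    refine ⟨hsucc y hy, fun z hz => ?_⟩
    set g := π ⟨y, hy.1⟩ ^ (p ^ j) with hg
    set h := π ⟨z, hz.1⟩ ^ (p ^ j) with hh
    have hg1 : g ≠ 1 := fun e => hyn ⟨hy.1, by
      rw [hg, ← map_pow] at e; simpa using (hπ _).1 e⟩
    have hkill : ∀ w : Ω, ∀ hw : w ∈ D (j + 1), (π ⟨w, hw.1⟩ ^ (p ^ j)) ^ p = 1 := fun w hw => by
      rw [← pow_mul, ← pow_succ, ← map_pow]
      exact (hπ _).2 (by simpa using hw.2)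
    haveI := hcyc
    letI := hcyc.commGroup
    have hle : Subgroup.zpowers g ≤ (powMonoidHom p : (B ⧸ N) →* B ⧸ N).ker :=
      Subgroup.zpowers_le.2 (hkill y hy)
    have heq := Subgroup.eq_of_le_of_card_ge hle (by
      rw [Nat.card_zpowers, orderOf_eq_prime (hkill y hy) hg1, IsCyclic.card_powMonoidHom_ker]
      exact Nat.le_of_dvd hp.out.pos (Nat.gcd_dvd_right _ _))
    obtain ⟨t, ht⟩ : ∃ t : ℕ, g ^ t = h := by
      have : h ∈ Subgroup.zpowers g := heq ▸ hkill z hz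
      exact (mem_powers_iff_mem_zpowers.2 this)
    refine ⟨t, mul_mem hz.1 (inv_mem (pow_mem hy.1 _)), ?_⟩
    have hfin : π ((⟨z, hz.1⟩ * (⟨y, hy.1⟩ ^ t)⁻¹ : B) ^ (p ^ j)) = 1 := by
      rw [map_pow, map_mul, map_inv, map_pow, mul_pow, inv_pow, ← pow_mul, mul_comm t, pow_mul,
        ← hh, ← hg, ht, mul_inv_cancel]
    simpa using (hπ _).1 hfin
  refine ⟨n + s, fun k => if k ≤ n then L k else D (k - n), ?_⟩
  have hval : ∀ k, n ≤ k → (if k ≤ n then L k else D (k - n)) = D (k - n) := fun k hk => by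
    split_ifs with h
    · rw [show k = n by omega, Nat.sub_self, hD0, hL.top n le_rfl]
    · rfl
  refine ⟨?_, fun k hk => ?_, monotone_nat_of_le_succ fun k => ?_, fun k => ?_, fun k hk => ?_⟩
  · show (if 0 ≤ n then L 0 else D (0 - n)) = ⊥
    rw [if_pos n.zero_le]
    exact hL.bot
  · show (if k ≤ n then L k else D (k - n)) = B
    rw [hval k (by omega), hs _ (by omega)]
  · by_cases h : k < n
    · rw [if_pos h.le, if_pos (by omega : k + 1 ≤ n)]
      exact hL.mono k.le_succ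
    · rw [hval k (by omega), hval (k + 1) (by omega)]
      exact hDmono (by omega)
  · show F.StronglyClosed (if k ≤ n then L k else D (k - n))
    split_ifs
    · exact hL.closed k
    · exact hDcl _
  · by_cases h : k < n
    · simp only [if_pos h.le, if_pos (by omega : k + 1 ≤ n)]
      exact hL.step k h
    · have h2 := hval (k + 1) (by omega)
      rw [show k + 1 - n = (k - n) + 1 by omega] at h2
      simp only [hval k (by omega)]
      intro y hy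
      simp only [show (if k + 1 ≤ n then L (k + 1) else D (k + 1 - n)) = D (k - n + 1) by
        rw [hval (k + 1) (by omega), show k + 1 - n = (k - n) + 1 by omega]] at hy ⊢
      exact hDstep _ y hy

theorem exists_steps [Finite S] {p : ℕ} [Fact p.Prime] (hS : IsPGroup p S)
    {F : Cfsg.FusionSystem S} (h : HasChain F) :
    ∃ (n : ℕ) (L : ℕ → Subgroup Ω), Steps F p S n L := by
  obtain ⟨m, c, h0, hm, hcl, hst⟩ := h
  suffices H : ∀ i : Fin (m + 1), ∃ (n : ℕ) (L : ℕ → Subgroup Ω), Steps F p (c i) n L by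
    have h' := H (Fin.last m)
    rw [hm] at h'
    exact h'
  intro i
  induction i using Fin.induction with
  | zero =>
    exact ⟨0, fun _ => ⊥, rfl, fun _ _ => h0.symm, monotone_const, fun _ => stronglyClosed_bot F,
      fun k hk => absurd hk (Nat.not_lt_zero k)⟩
  | succ i ih =>
    obtain ⟨n, L, hL⟩ := ih
    obtain ⟨hle, x, hx, hgen⟩ := hst i
    exact exists_steps_of_cyclic hS (hcl _) (hcl _) hle hx hgen hL

/-! ### Automorphisms respecting the series -/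

section Action

variable {F : Cfsg.FusionSystem S} {p : ℕ} {n : ℕ} {L : ℕ → Subgroup Ω} {Q : Subgroup Ω}

/-- An automorphism of `Q` preserving every term. -/
def Keeps (L : ℕ → Subgroup Ω) (α : MulAut Q) : Prop :=
  ∀ k, ∀ x : Q, (x : Ω) ∈ L k ↔ ((α x : Q) : Ω) ∈ L k

/-- An automorphism of `Q` trivial on every factor. -/
def Stabilizes (n : ℕ) (L : ℕ → Subgroup Ω) (α : MulAut Q) : Prop :=
  ∀ k < n, ∀ x : Q, (x : Ω) ∈ L (k + 1) → (x : Ω)⁻¹ * ((α x : Q) : Ω) ∈ L k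

theorem keeps_of_mem (hL : Steps F p S n L) (hQ : Q ≤ S) {α : MulAut Q} (hα : α ∈ F.autGroup Q) :
    Keeps L α := by
  intro k x
  refine ⟨fun hx => Fusion.Alperin.map_mem_of_stronglyClosed (hL.closed k)
    ((mem_autGroup_iff F hQ).1 hα) hx, fun hx => ?_⟩
  have h := Fusion.Alperin.map_mem_of_stronglyClosed (hL.closed k)
    ((mem_autGroup_iff F hQ).1 (inv_mem hα)) (x := α x) hx
  simpa using h

theorem exists_scalar [Fact p.Prime] (hL : Steps F p S n L) {α : MulAut Q} (hα : Keeps L α) {k : ℕ}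
    (hk : k < n) : ∃ a : ℕ, ¬ p ∣ a ∧ ∀ y : Q, (y : Ω) ∈ L (k + 1) →
      ∀ m : ℕ, (((α ^ m) y : Q) : Ω) * ((y : Ω) ^ (a ^ m))⁻¹ ∈ L k := by
  classical
  by_cases htriv : ∀ y : Q, (y : Ω) ∈ L (k + 1) → (y : Ω) ∈ L k
  · refine ⟨1, (Fact.out : p.Prime).not_dvd_one, fun y hy m => ?_⟩
    have hm : ∀ m : ℕ, (((α ^ m) y : Q) : Ω) ∈ L k := fun m => by
      induction m with
      | zero => exact htriv y hy
      | succ m ih => rw [pow_succ', MulAut.mul_apply]; exact (hα k _).1 ih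
    exact mul_mem (hm m) (inv_mem (pow_mem (htriv y hy) _))
  push Not at htriv
  obtain ⟨y0, hy0, hy0n⟩ := htriv
  obtain ⟨hy0p, hcov⟩ := hL.step k hk _ hy0 hy0n
  obtain ⟨a, ha⟩ := hcov _ ((hα (k + 1) y0).1 hy0)
  have hpa : ¬ p ∣ a := by
    rintro ⟨b, rfl⟩
    have h2 : ((α y0 : Q) : Ω) ∈ L k := by
      rw [pow_mul] at ha
      simpa using mul_mem ha (pow_mem hy0p b)
    exact hy0n ((hα k y0).2 h2)
  refine ⟨a, hpa, ?_⟩
  haveI := normal_subgroupOf (hL.closed k) (hL.closed (k + 1)).1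
  let π : L (k + 1) →* L (k + 1) ⧸ (L k).subgroupOf (L (k + 1)) := QuotientGroup.mk' _
  have hπ : ∀ u v : L (k + 1), π u = π v ↔ (u : Ω) * (v : Ω)⁻¹ ∈ L k := fun u v => by
    rw [← mul_inv_eq_one, ← map_inv, ← map_mul, QuotientGroup.mk'_apply, QuotientGroup.eq_one_iff]
    rfl
  have one : ∀ y : Q, ∀ hy : (y : Ω) ∈ L (k + 1),
      π ⟨_, (hα (k + 1) y).1 hy⟩ = π ⟨y, hy⟩ ^ a := by
    intro y hy
    obtain ⟨t, ht⟩ := hcov _ hy
    set l : Q := y * (y0 ^ t)⁻¹ with hl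
    have hlk : (l : Ω) ∈ L k := by simpa [hl] using ht
    have e : y = l * y0 ^ t := by rw [hl, inv_mul_cancel_right]
    have h1 : π ⟨_, (hα (k + 1) y).1 hy⟩ = π ⟨_, (hα (k + 1) y0).1 hy0⟩ ^ t := by
      rw [← map_pow, hπ]
      have : ((α y : Q) : Ω) * (((α y0 : Q) : Ω) ^ t)⁻¹ = ((α l : Q) : Ω) := by
        rw [e, map_mul, map_pow]; simp
      simpa [this] using (hα k l).1 hlk
    have h2 : π ⟨y, hy⟩ = π ⟨y0, hy0⟩ ^ t := by rw [← map_pow, hπ]; simpa using ht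
    have h3 : π ⟨_, (hα (k + 1) y0).1 hy0⟩ = π ⟨y0, hy0⟩ ^ a := by rw [← map_pow, hπ]; simpa using ha
    rw [h1, h2, h3, ← pow_mul, ← pow_mul, mul_comm]
  intro y hy m
  suffices ∃ h : (((α ^ m) y : Q) : Ω) ∈ L (k + 1), π ⟨_, h⟩ = π ⟨y, hy⟩ ^ (a ^ m) by
    obtain ⟨h, e⟩ := this
    rw [← map_pow, hπ] at e
    simpa using e
  induction m with
  | zero => exact ⟨hy, by simp⟩
  | succ m ih =>
    obtain ⟨h, e⟩ := ih
    have hh : ((α ((α ^ m) y) : Q) : Ω) ∈ L (k + 1) := (hα (k + 1) _).1 h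
    have e1 : (((α ^ (m + 1)) y : Q) : Ω) = ((α ((α ^ m) y) : Q) : Ω) := by
      rw [pow_succ', MulAut.mul_apply]
    refine ⟨e1 ▸ hh, ?_⟩
    have : (⟨(((α ^ (m + 1)) y : Q) : Ω), e1 ▸ hh⟩ : L (k + 1)) = ⟨_, hh⟩ := Subtype.ext e1
    rw [this, one _ h, e, ← pow_mul, pow_succ]

theorem stabilizes_pow_pred [Fact p.Prime] (hL : Steps F p S n L) {α : MulAut Q} (hα : Keeps L α) :
    Stabilizes n L (α ^ (p - 1)) := by
  intro k hk y hy
  obtain ⟨a, hpa, ha⟩ := exists_scalar hL hα hk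
  have h := ha y hy (p - 1)
  by_cases hyk : (y : Ω) ∈ L k
  · have hm : ∀ m : ℕ, (((α ^ m) y : Q) : Ω) ∈ L k := fun m => by
      induction m with
      | zero => exact hyk
      | succ m ih => rw [pow_succ', MulAut.mul_apply]; exact (hα k _).1 ih
    exact mul_mem (inv_mem hyk) (hm _)
  obtain ⟨hyp, -⟩ := hL.step k hk _ hy hyk
  have hmod : a ^ (p - 1) ≡ 1 [MOD p] := by
    have := Nat.ModEq.pow_totient ((Nat.Prime.coprime_iff_not_dvd Fact.out).2 hpa).symm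
    rwa [Nat.totient_prime Fact.out] at this
  have hpos : 1 ≤ a ^ (p - 1) := Nat.one_le_iff_ne_zero.2 (pow_ne_zero _ (by rintro rfl; simp at hpa))
  obtain ⟨b, hb⟩ := (Nat.modEq_iff_dvd' hpos).1 hmod.symm
  have hpow : (y : Ω) ^ (a ^ (p - 1)) = y * ((y : Ω) ^ p) ^ b := by
    rw [← pow_mul, ← pow_succ']; congr 1; omega
  haveI := normal_subgroupOf (hL.closed k) (hL.closed (k + 1)).1
  have hN := Fusion.Alperin.le_normalizer_of_stronglyClosed (hL.closed k) ((hL.closed (k + 1)).1 hy)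
  rw [hpow] at h
  have h2 := (Subgroup.mem_normalizer_iff''.1 hN _).1 h
  have e : (y : Ω)⁻¹ * ((((α ^ (p - 1)) y : Q) : Ω) * ((y : Ω) * ((y : Ω) ^ p) ^ b)⁻¹) * y =
      ((y : Ω)⁻¹ * (((α ^ (p - 1)) y : Q) : Ω)) * (((y : Ω) ^ p) ^ b)⁻¹ := by group
  rw [e] at h2
  simpa using mul_mem h2 (pow_mem hyp b)

theorem stabilizes_of_pow_eq_one [Fact p.Prime] (hL : Steps F p S n L) {α : MulAut Q}
    (hα : Keeps L α) {t : ℕ} (ht : α ^ (p ^ t) = 1) : Stabilizes n L α := by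
  intro k hk y hy
  by_cases hyk : (y : Ω) ∈ L k
  · exact mul_mem (inv_mem hyk) ((hα k y).1 hyk)
  obtain ⟨a, -, ha⟩ := exists_scalar hL hα hk
  obtain ⟨hyp, -⟩ := hL.step k hk _ hy hyk
  have h0 := ha y hy (p ^ t)
  rw [ht] at h0
  -- `a ≡ 1` modulo `p`
  have hdiv : (a : ZMod p) = 1 := by
    by_contra hne
    apply hyk
    have hZ : ((a ^ (p ^ t) : ℕ) : ZMod p) = (a : ZMod p) := by
      rw [Nat.cast_pow, ZMod.pow_card_pow]
    obtain ⟨u, hu⟩ : ∃ u : ZMod p, u * ((a ^ (p ^ t) : ℕ) - 1 : ZMod p) = 1 :=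
      ⟨((a ^ (p ^ t) : ℕ) - 1 : ZMod p)⁻¹, inv_mul_cancel₀ (by rw [hZ, sub_ne_zero]; exact hne)⟩
    have hy1 : (y : Ω) ^ ((a ^ (p ^ t) : ℤ) - 1) ∈ L k := by
      have : (y : Ω) ^ ((a ^ (p ^ t) : ℤ) - 1) = ((1 * (y : Ω)) * ((y : Ω) ^ (a ^ (p ^ t)))⁻¹)⁻¹ := by
        rw [zpow_sub, one_mul, mul_inv_rev, inv_inv, ← zpow_natCast, zpow_one]
        push_cast
        rfl
      rw [this]
      refine inv_mem ?_
      simpa using h0
    have hdvd : (p : ℤ) ∣ (u.val : ℤ) * ((a ^ (p ^ t) : ℤ) - 1) - 1 := by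
      rw [← ZMod.intCast_zmod_eq_zero_iff_dvd]
      push_cast
      rw [ZMod.natCast_zmod_val]
      push_cast at hu
      rw [hu, sub_self]
    obtain ⟨b, hb⟩ := hdvd
    have e : (y : Ω) = ((y : Ω) ^ ((a ^ (p ^ t) : ℤ) - 1)) ^ (u.val : ℤ) * (((y : Ω) ^ p) ^ b)⁻¹ := by
      rw [← zpow_mul, ← zpow_natCast, ← zpow_mul, ← zpow_neg, ← zpow_add]
      conv_lhs => rw [← zpow_one (y : Ω)]
      congr 1
      rw [mul_comm]
      omega
    rw [e]
    exact mul_mem (zpow_mem hy1 _) (inv_mem (zpow_mem hyp _))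
  have h1 := ha y hy 1
  rw [pow_one, pow_one] at h1
  obtain ⟨b, hb⟩ : (p : ℤ) ∣ (a : ℤ) - 1 := by
    rw [← ZMod.intCast_zmod_eq_zero_iff_dvd]
    push_cast
    rw [hdiv, sub_self]
  have hN := Fusion.Alperin.le_normalizer_of_stronglyClosed (hL.closed k) ((hL.closed (k + 1)).1 hy)
  have h2 := (Subgroup.mem_normalizer_iff''.1 hN _).1 h1
  have e : (y : Ω)⁻¹ * (((α y : Q) : Ω) * ((y : Ω) ^ a)⁻¹) * y =
      ((y : Ω)⁻¹ * ((α y : Q) : Ω)) * (((y : Ω) ^ p) ^ b)⁻¹ := by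
    rw [← zpow_natCast (y : Ω) p, ← zpow_mul, ← hb, zpow_sub, zpow_natCast, zpow_one]
    group
  rw [e] at h2
  simpa using mul_mem h2 (zpow_mem hyp b)

theorem stabilizes_commutator [Fact p.Prime] (hL : Steps F p S n L) {α β : MulAut Q}
    (hα : Keeps L α) (hβ : Keeps L β) : Stabilizes n L (α * β * α⁻¹ * β⁻¹) := by
  intro k hk y hy
  obtain ⟨a, -, ha⟩ := exists_scalar hL hα hk
  obtain ⟨b, -, hb⟩ := exists_scalar hL hβ hk
  haveI := normal_subgroupOf (hL.closed k) (hL.closed (k + 1)).1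
  let π : L (k + 1) →* L (k + 1) ⧸ (L k).subgroupOf (L (k + 1)) := QuotientGroup.mk' _
  have hπ : ∀ u v : L (k + 1), π u = π v ↔ (u : Ω) * (v : Ω)⁻¹ ∈ L k := fun u v => by
    rw [← mul_inv_eq_one, ← map_inv, ← map_mul, QuotientGroup.mk'_apply, QuotientGroup.eq_one_iff]
    rfl
  set z : Q := α⁻¹ (β⁻¹ y) with hz
  have e1 : β (α z) = y := by simp [hz]
  have e2 : (α * β * α⁻¹ * β⁻¹) y = α (β z) := by simp [hz, MulAut.mul_apply]
  have hzk : (z : Ω) ∈ L (k + 1) := by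
    rw [← e1] at hy
    exact (hα _ z).2 ((hβ _ (α z)).2 hy)
  have hkey : ∀ (γ : MulAut Q) (hγ : Keeps L γ) (c : ℕ),
      (∀ y : Q, (y : Ω) ∈ L (k + 1) → ∀ m : ℕ, (((γ ^ m) y : Q) : Ω) * ((y : Ω) ^ (c ^ m))⁻¹ ∈ L k) →
      ∀ (w : Q) (hw : (w : Ω) ∈ L (k + 1)), π ⟨_, (hγ _ w).1 hw⟩ = π ⟨w, hw⟩ ^ c := by
    intro γ hγ c hc w hw
    rw [← map_pow, hπ]
    simpa using hc w hw 1
  have hy1 : π ⟨_, (hβ _ _).1 ((hα _ z).1 hzk)⟩ = π ⟨z, hzk⟩ ^ (a * b) := by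
    rw [hkey β hβ b hb _ ((hα _ z).1 hzk), hkey α hα a ha _ hzk, ← pow_mul]
  have hy2 : π ⟨_, (hα _ _).1 ((hβ _ z).1 hzk)⟩ = π ⟨z, hzk⟩ ^ (a * b) := by
    rw [hkey α hα a ha _ ((hβ _ z).1 hzk), hkey β hβ b hb _ hzk, ← pow_mul, mul_comm]
  have h := (hπ _ _).1 (hy2.trans hy1.symm)
  have hN := Fusion.Alperin.le_normalizer_of_stronglyClosed (hL.closed k) ((hL.closed (k + 1)).1 hy)
  have h2 := (Subgroup.mem_normalizer_iff''.1 hN _).1 h
  rw [e2]
  simp only [e1] at h2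
  simpa [mul_assoc] using h2

theorem eq_one_of_stabilizes [Finite Q] [Fact p.Prime] (hQ : IsPGroup p Q) (hQS : Q ≤ S)
    (hL : Steps F p S n L) {α : MulAut Q} (hα : Stabilizes n L α)
    (hc : (orderOf α).Coprime p) : α = 1 := by
  obtain ⟨k, hk⟩ := Fusion.Alperin.exists_pow_eq_one_of_stabilizes hQ n L hL.bot
    (by rw [hL.top n le_rfl]; exact hQS) hL.mono hα
  exact orderOf_eq_one_iff.1 (Nat.eq_one_of_dvd_coprimes (hc.pow_right k) dvd_rfl
    (orderOf_dvd_of_pow_eq_one hk))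

end Action

/-! ### Consequences -/

variable [Finite S] {p : ℕ} [Fact p.Prime]

theorem isNormal_top (hS : IsPGroup p S) {F : Cfsg.FusionSystem S} (hF : F.IsSaturated p)
    (h : HasChain F) : F.IsNormal S := by
  obtain ⟨n, L, hL⟩ := exists_steps hS h
  refine (Fusion.Alperin.isNormal_top_iff hS hF).2 fun R hR => le_antisymm hR.centric.1 ?_
  by_contra hne
  have hne' : R ≠ S := fun e => hne e.ge
  obtain ⟨g, hgN, hgR⟩ := Fusion.Alperin.exists_normalizing_not_mem hS hR.centric.1 hne'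
  refine hgR (Fusion.Alperin.mem_of_stabilizes_series hS hR.centric hR.radical hgN n L hL.bot
    (by rw [hL.top n le_rfl]; exact hR.centric.1) hL.mono
    (fun i a ha x hx => (keeps_of_mem hL hR.centric.1 ha i x).1 hx) fun k hk x hxR hx => ?_)
  haveI : Finite R := finite_of_le hR.centric.1
  obtain ⟨t, ht⟩ := hS ⟨g, hgN.1⟩
  have hα := autInducedBy_le_autGroup F hR.centric.1
    (conjAut_mem_autInducedBy (P := R) hgN.2 hgN.1)
  have hpow : ∀ (m : ℕ) (y : R), (((conjAut (P := R) hgN.2 ^ m) y : R) : Ω) = g ^ m * y * (g ^ m)⁻¹ := by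
    intro m
    induction m with
    | zero => simp
    | succ m ih =>
      intro y
      rw [pow_succ', MulAut.mul_apply, conjAut_apply, ih, pow_succ']
      group
  have h1 : conjAut (P := R) hgN.2 ^ (p ^ t) = 1 := by
    ext y
    rw [hpow, show g ^ (p ^ t) = 1 by simpa using congrArg Subtype.val ht]
    simp
  have := stabilizes_of_pow_eq_one hL (keeps_of_mem hL hR.centric.1 hα) h1 k hk ⟨x, hxR⟩ hx
  simpa [conjAut_apply] using this

theorem abelian_exponent (hS : IsPGroup p S) {F : Cfsg.FusionSystem S} (h : HasChain F)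
    (H : Subgroup (MulAut S)) (hH : H ≤ F.autGroup S) (hcop : (Nat.card H).Coprime p) :
    IsMulCommutative H ∧ ∀ a ∈ H, a ^ (p - 1) = 1 := by
  obtain ⟨n, L, hL⟩ := exists_steps hS h
  have hco : ∀ a ∈ H, (orderOf a).Coprime p := fun a ha =>
    hcop.coprime_dvd_left (H.orderOf_dvd_natCard ha)
  have hk : ∀ a ∈ H, Keeps L a := fun a ha => keeps_of_mem hL le_rfl (hH ha)
  refine ⟨⟨⟨fun a b => Subtype.ext ?_⟩⟩, fun a ha => eq_one_of_stabilizes hS le_rfl hL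
    (stabilizes_pow_pred hL (hk a ha)) (hco _ (pow_mem ha _))⟩
  have := eq_one_of_stabilizes hS le_rfl hL (stabilizes_commutator hL (hk a a.2) (hk b b.2))
    (hco _ (mul_mem (mul_mem (mul_mem a.2 b.2) (inv_mem a.2)) (inv_mem b.2)))
  have h2 : (a : MulAut S) * b * ((b : MulAut S) * a)⁻¹ = 1 := by
    rw [mul_inv_rev, ← this]; group
  exact mul_inv_eq_one.1 h2

theorem isPGroup_autGroup (hS : IsPGroup 2 S) {F : Cfsg.FusionSystem S} (h : HasChain F)
    {Q : Subgroup Ω} (hQ : Q ≤ S) : IsPGroup 2 (F.autGroup Q) := by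
  haveI : Finite Q := finite_of_le hQ
  obtain ⟨n, L, hL⟩ := exists_steps hS h
  rintro ⟨a, ha⟩
  have hs : Stabilizes n L a := by simpa using stabilizes_pow_pred hL (keeps_of_mem hL hQ ha)
  obtain ⟨k, hk⟩ := Fusion.Alperin.exists_pow_eq_one_of_stabilizes (hS.to_le hQ) n L hL.bot
    (by rw [hL.top n le_rfl]; exact hQ) hL.mono hs
  exact ⟨k, Subtype.ext (by simpa using hk)⟩

end CfsgLib.Fus.Supersoluble
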