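import Mathlib
import Cfsg.Agent.Eq.Def_OddOrderLocal
import Cfsg.Agent.PGroup.Frattini
import Cfsg.Agent.PGroup.Normal
import Cfsg.Agent.PGroup.Aut
import Cfsg.Agent.PGroup.Commutator
import Cfsg.Prelude.Def_OddOrderLocal

/-!
Automorphism groups of metacyclic `p`-groups: a group of automorphisms moving every maximal subgroup
forces a homocyclic group, or `p = 2` and abelianization of order four.
-/

set_option autoImplicit false

namespace CfsgLib.Fus.Supersoluble

open scoped commutatorElement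

variable {R : Type*} [Group R]

/-- Every maximal subgroup is moved by some element of `A`. -/
def MovesMaximals (A : Subgroup (MulAut R)) : Prop :=
  ∀ M : Subgroup R, IsCoatom M → ∃ α ∈ A, ∃ x ∈ M, α x ∉ M

theorem exists_two_gens (hm : Cfsg.IsMetacyclic R) :
    ∃ a b : R, (Subgroup.zpowers a).Normal ∧ commutator R ≤ Subgroup.zpowers a ∧
      ∀ x : R, ∃ i j : ℤ, x = a ^ i * b ^ j := by
  obtain ⟨N, hN, hNc, hQ⟩ := hm
  obtain ⟨a, rfl⟩ := N.isCyclic_iff_exists_zpowers_eq_top.1 hNc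
  haveI := hQ
  obtain ⟨g, hg⟩ := IsCyclic.exists_generator (α := R ⧸ Subgroup.zpowers a)
  obtain ⟨b, rfl⟩ := QuotientGroup.mk_surjective g
  refine ⟨a, b, hN, ?_, fun x => ?_⟩
  · rw [← Subgroup.Normal.quotient_commutative_iff_commutator_le]
    letI := hQ.commGroup
    exact ⟨⟨fun x y => mul_comm x y⟩⟩
  · obtain ⟨j, hj⟩ := Subgroup.mem_zpowers_iff.1 (hg x)
    have h1 : x * (b ^ j)⁻¹ ∈ Subgroup.zpowers a := by
      rw [← QuotientGroup.eq_one_iff, QuotientGroup.mk_mul, QuotientGroup.mk_inv,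
        QuotientGroup.mk_zpow, hj, mul_inv_cancel]
    obtain ⟨i, hi⟩ := Subgroup.mem_zpowers_iff.1 h1
    exact ⟨i, j, by rw [hi, inv_mul_cancel_right]⟩

/-- In a group generated by two commuting elements the order is at most the product of the orders. -/
theorem card_le_of_gens {V : Type*} [CommGroup V] [Finite V] {u v : V}
    (h : ∀ x : V, ∃ i j : ℤ, x = u ^ i * v ^ j) : Nat.card V ≤ orderOf u * orderOf v := by
  rw [← Nat.card_zpowers, ← Nat.card_zpowers, ← Nat.card_prod]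
  refine Nat.card_le_card_of_surjective
    (fun q : Subgroup.zpowers u × Subgroup.zpowers v => (q.1 : V) * q.2) fun x => ?_
  obtain ⟨i, j, rfl⟩ := h x
  exact ⟨(⟨u ^ i, i, rfl⟩, ⟨v ^ j, j, rfl⟩), rfl⟩

variable {p : ℕ} [hp : Fact p.Prime] [Finite R]

omit [Finite R] in
theorem orderOf_dvd_prime_of_pow {V : Type*} [Group V] {u : V} (h : u ^ p = 1) : orderOf u ≤ p :=
  orderOf_le_of_pow_eq_one hp.out.pos h

theorem frattini_index_le (hR : IsPGroup p R) (hm : Cfsg.IsMetacyclic R) :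
    (frattini R).index ≤ p * p := by
  obtain ⟨a, b, -, -, hgen⟩ := exists_two_gens hm
  letI : CommGroup (R ⧸ frattini R) :=
    { (inferInstance : Group (R ⧸ frattini R)) with mul_comm := CfsgLib.PGroup.frattini_quotient_comm hR }
  have h : Nat.card (R ⧸ frattini R) ≤
      orderOf (a : R ⧸ frattini R) * orderOf (b : R ⧸ frattini R) := by
    refine card_le_of_gens fun x => ?_
    obtain ⟨y, rfl⟩ := QuotientGroup.mk_surjective x
    obtain ⟨i, j, rfl⟩ := hgen y
    exact ⟨i, j, by simp⟩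
  rw [Subgroup.index_eq_card]
  exact h.trans (Nat.mul_le_mul (orderOf_dvd_prime_of_pow (CfsgLib.PGroup.frattini_quotient_pow hR _))
    (orderOf_dvd_prime_of_pow (CfsgLib.PGroup.frattini_quotient_pow hR _)))

/-! ### Moving every maximal subgroup -/

theorem not_invariant {A : Subgroup (MulAut R)} (hA : MovesMaximals A) {M : Subgroup R}
    (hM : ∀ (α : MulAut R) (x : R), x ∈ M → α x ∈ M) : M.index ≠ p := fun h => by
  obtain ⟨α, -, x, hx, hx'⟩ := hA M (CfsgLib.PGroup.isCoatom_of_index_eq h)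
  exact hx' (hM α x hx)

theorem commutator_apply_mem (α : MulAut R) {x : R} (hx : x ∈ commutator R) : α x ∈ commutator R := by
  have h : (commutator R).Characteristic := inferInstance
  exact (Subgroup.characteristic_iff_map_le.1 h α) ⟨x, hx, rfl⟩

theorem homocyclic_or_four (hR : IsPGroup p R) (hm : Cfsg.IsMetacyclic R) [Nontrivial R]
    {A : Subgroup (MulAut R)} (hA : MovesMaximals A) :
    (IsMulCommutative R ∧ ∃ k : ℕ, 0 < k ∧ Nat.card R = p ^ k * p ^ k ∧ (∀ x : R, x ^ p ^ k = 1) ∧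
      Nonempty (R ≃* Multiplicative (ZMod (p ^ k)) × Multiplicative (ZMod (p ^ k)))) ∨
    (p = 2 ∧ (commutator R).index = 4) := by
  classical
  obtain ⟨a, b, hanorm, hCa, hgen⟩ := exists_two_gens hm
  have hC : commutator R ≠ ⊤ := fun h => CfsgLib.PGroup.frattini_ne_top (P := R)
    (top_le_iff.1 (h.symm.le.trans (CfsgLib.PGroup.commutator_le_frattini hR)))
  let π : R →* Abelianization R := Abelianization.of
  have hπ : ∀ x, π x = 1 ↔ x ∈ commutator R := fun x => QuotientGroup.eq_one_iff x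
  have hπs : Function.Surjective π := QuotientGroup.mk_surjective
  haveI : Finite (Abelianization R) := Finite.of_surjective _ hπs
  have hex : ∃ k, ∀ y : Abelianization R, y ^ p ^ k = 1 := by
    obtain ⟨e, he⟩ := IsPGroup.iff_card.1 hR
    refine ⟨e, fun y => ?_⟩
    obtain ⟨x, rfl⟩ := hπs y
    rw [← map_pow, ← he, pow_card_eq_one', map_one]
  set k := Nat.find hex with hk
  have hexp : ∀ y : Abelianization R, y ^ p ^ k = 1 := Nat.find_spec hex
  have hk0 : 0 < k := by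
    rw [Nat.pos_iff_ne_zero]
    intro h0
    apply hC
    rw [eq_top_iff]
    intro x _
    rw [← hπ]
    simpa [h0] using hexp (π x)
  let f : Abelianization R →* Abelianization R := powMonoidHom (p ^ (k - 1))
  have hfp : ∀ y, f y ^ p = 1 := fun y => by
    show (y ^ p ^ (k - 1)) ^ p = 1
    rw [← pow_mul, ← pow_succ, Nat.sub_add_cancel hk0]
    exact hexp y
  set A1 := f (π a) with hA1
  set B1 := f (π b) with hB1
  have hfgen : ∀ z ∈ f.range, ∃ i j : ℤ, z = A1 ^ i * B1 ^ j := by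
    rintro _ ⟨y, rfl⟩
    obtain ⟨x, rfl⟩ := hπs y
    obtain ⟨i, j, rfl⟩ := hgen x
    exact ⟨i, j, by simp [hA1, hB1]⟩
  let ρ : Subgroup.zpowers A1 × Subgroup.zpowers B1 → f.range := fun q =>
    ⟨q.1 * q.2, mul_mem (Subgroup.zpowers_le.2 (⟨π a, rfl⟩ : A1 ∈ f.range) q.1.2) (Subgroup.zpowers_le.2 (⟨π b, rfl⟩ : B1 ∈ f.range) q.2.2)⟩
  have hρs : Function.Surjective ρ := by
    rintro ⟨z, hz⟩
    obtain ⟨i, j, rfl⟩ := hfgen z hz
    exact ⟨(⟨A1 ^ i, i, rfl⟩, ⟨B1 ^ j, j, rfl⟩), rfl⟩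
  have hne : Nat.card f.range ≠ p := by
    intro h
    refine not_invariant (p := p) hA (M := (f.comp π).ker) (fun α x hx => ?_) ?_
    · rw [MonoidHom.mem_ker] at hx ⊢
      have h1 : x ^ p ^ (k - 1) ∈ commutator R := (hπ _).1 (by rw [map_pow]; exact hx)
      have := (hπ _).2 (commutator_apply_mem α h1)
      rwa [map_pow, map_pow] at this
    · rw [Subgroup.index_ker, MonoidHom.range_comp, MonoidHom.range_eq_top.2 hπs, ← MonoidHom.range_eq_map]
      exact h
  have hcardle : Nat.card f.range ≤ p * p := (Nat.card_le_card_of_surjective ρ hρs).trans (by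
    rw [Nat.card_prod, Nat.card_zpowers, Nat.card_zpowers]
    exact Nat.mul_le_mul (orderOf_dvd_prime_of_pow (hfp _)) (orderOf_dvd_prime_of_pow (hfp _)))
  have hcard : Nat.card f.range = p * p := by
    have hP : IsPGroup p f.range := fun z => by
      obtain ⟨y, hy⟩ := z.2
      exact ⟨1, Subtype.ext (by rw [pow_one]; show (z : Abelianization R) ^ p = 1; rw [← hy]; exact hfp y)⟩
    obtain ⟨e, he⟩ := IsPGroup.iff_card.1 hP
    rw [he] at hne hcardle ⊢
    rcases e with _ | _ | _ | e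
    · exfalso
      have hlt : k - 1 < k := by omega
      apply Nat.find_min hex hlt
      intro y
      have : f.range = ⊥ := Subgroup.eq_bot_of_card_eq _ (by rw [he, pow_zero])
      exact Subgroup.mem_bot.1 (this ▸ (⟨y, rfl⟩ : y ^ p ^ (k - 1) ∈ f.range))
    · exact absurd (pow_one p) hne
    · ring
    · exfalso
      have h3 : p ^ 3 ≤ p ^ (e + 1 + 1 + 1) := Nat.pow_le_pow_right hp.out.pos (by omega)
      have := hp.out.one_lt
      nlinarith
  have hord : orderOf A1 = p ∧ orderOf B1 = p := by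
    have h := Nat.card_le_card_of_surjective ρ hρs
    rw [Nat.card_prod, Nat.card_zpowers, Nat.card_zpowers, hcard] at h
    have h1 := orderOf_dvd_prime_of_pow (p := p) (hfp (π a))
    have h2 := orderOf_dvd_prime_of_pow (p := p) (hfp (π b))
    rw [← hA1] at h1
    rw [← hB1] at h2
    have := hp.out.one_lt
    constructor <;> nlinarith
  have hρi : Function.Injective ρ := (Function.Surjective.bijective_of_nat_card_le hρs (by
    rw [Nat.card_prod, Nat.card_zpowers, Nat.card_zpowers, hord.1, hord.2, hcard])).1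
  have hbase : ∀ i j : ℤ, A1 ^ i * B1 ^ j = 1 → (p : ℤ) ∣ i ∧ (p : ℤ) ∣ j := by
    intro i j h
    have h' : ρ (⟨A1 ^ i, i, rfl⟩, ⟨B1 ^ j, j, rfl⟩) = ρ (1, 1) := Subtype.ext (by simpa [ρ] using h)
    have h'' := Prod.ext_iff.1 (hρi h')
    constructor
    · rw [← hord.1, orderOf_dvd_iff_zpow_eq_one]
      exact congrArg Subtype.val h''.1
    · rw [← hord.2, orderOf_dvd_iff_zpow_eq_one]
      exact congrArg Subtype.val h''.2
  have hrel : ∀ i j : ℤ, π a ^ i * π b ^ j = 1 → (p : ℤ) ^ k ∣ i ∧ (p : ℤ) ^ k ∣ j := by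
    intro i j h
    suffices ∀ t, t ≤ k → (p : ℤ) ^ t ∣ i ∧ (p : ℤ) ^ t ∣ j from this k le_rfl
    intro t
    induction t with
    | zero => simp
    | succ t ih =>
      intro ht
      obtain ⟨⟨i', hi⟩, j', hj⟩ := ih (by omega)
      have h2 := congrArg (fun z => z ^ ((p : ℤ) ^ (k - 1 - t))) h
      simp only [one_zpow, mul_zpow, ← zpow_mul] at h2
      have e : (p : ℤ) ^ t * (p : ℤ) ^ (k - 1 - t) = ((p ^ (k - 1) : ℕ) : ℤ) := by
        rw [← pow_add, show t + (k - 1 - t) = k - 1 by omega]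
        push_cast
        rfl
      rw [hi, hj, show (p : ℤ) ^ t * i' * (p : ℤ) ^ (k - 1 - t) = ((p ^ (k - 1) : ℕ) : ℤ) * i' by
          rw [← e]; ring,
        show (p : ℤ) ^ t * j' * (p : ℤ) ^ (k - 1 - t) = ((p ^ (k - 1) : ℕ) : ℤ) * j' by
          rw [← e]; ring,
        zpow_mul, zpow_mul, zpow_natCast, zpow_natCast] at h2
      obtain ⟨h3, h4⟩ := hbase i' j' h2
      exact ⟨hi ▸ pow_succ (p : ℤ) t ▸ mul_dvd_mul_left _ h3,
        hj ▸ pow_succ (p : ℤ) t ▸ mul_dvd_mul_left _ h4⟩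
  have hoa : orderOf (π a) = p ^ k := by
    refine Nat.dvd_antisymm (orderOf_dvd_of_pow_eq_one (hexp _)) ?_
    have h := (hrel (orderOf (π a)) 0 (by simp [pow_orderOf_eq_one])).1
    exact_mod_cast h
  have hob : orderOf (π b) = p ^ k := by
    refine Nat.dvd_antisymm (orderOf_dvd_of_pow_eq_one (hexp _)) ?_
    have h := (hrel 0 (orderOf (π b)) (by simp [pow_orderOf_eq_one])).2
    exact_mod_cast h
  let σ : Subgroup.zpowers (π a) × Subgroup.zpowers (π b) →* Abelianization R :=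
    MonoidHom.coprod (Subgroup.zpowers (π a)).subtype (Subgroup.zpowers (π b)).subtype
  have hσ : Function.Bijective σ := by
    refine ⟨(injective_iff_map_eq_one _).2 ?_, fun y => ?_⟩
    · rintro ⟨⟨_, i, rfl⟩, ⟨_, j, rfl⟩⟩ h
      have h' : π a ^ i * π b ^ j = 1 := by simpa [σ] using h
      obtain ⟨hi, hj⟩ := hrel i j h'
      refine Prod.ext (Subtype.ext ?_) (Subtype.ext ?_)
      · show π a ^ i = 1
        exact orderOf_dvd_iff_zpow_eq_one.1 (by rw [hoa]; exact_mod_cast hi)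
      · show π b ^ j = 1
        exact orderOf_dvd_iff_zpow_eq_one.1 (by rw [hob]; exact_mod_cast hj)
    · obtain ⟨x, rfl⟩ := hπs y
      obtain ⟨i, j, rfl⟩ := hgen x
      exact ⟨(⟨_, i, rfl⟩, ⟨_, j, rfl⟩), by simp [σ]⟩
  have hcardAb : Nat.card (Abelianization R) = p ^ k * p ^ k := by
    rw [← Nat.card_eq_of_bijective _ hσ, Nat.card_prod, Nat.card_zpowers, Nat.card_zpowers, hoa, hob]
  by_cases hCbot : commutator R = ⊥
  · left
    have hπi : Function.Injective π := (injective_iff_map_eq_one _).2 fun x hx => by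
      have := (hπ x).1 hx
      rwa [hCbot, Subgroup.mem_bot] at this
    let eπ : R ≃* Abelianization R := MulEquiv.ofBijective π ⟨hπi, hπs⟩
    refine ⟨⟨⟨fun x y => hπi (by rw [map_mul, map_mul, mul_comm])⟩⟩, k, hk0,
      by rw [Nat.card_congr eπ.toEquiv, hcardAb],
      fun x => hπi (by rw [map_pow, map_one]; exact hexp _), ?_⟩
    haveI : NeZero (p ^ k) := ⟨pow_ne_zero _ hp.out.ne_zero⟩
    exact ⟨eπ.trans ((MulEquiv.ofBijective σ hσ).symm.trans (MulEquiv.prodCongr
      (mulEquivOfCyclicCardEq (by rw [Nat.card_zpowers, hoa, Nat.card_eq_fintype_card, Fintype.card_multiplicative, ZMod.card]))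
      (mulEquivOfCyclicCardEq (by rw [Nat.card_zpowers, hob, Nat.card_eq_fintype_card, Fintype.card_multiplicative, ZMod.card]))))⟩
  right
  by_cases hgood : p = 2 ∧ k = 1
  · refine ⟨hgood.1, ?_⟩
    rw [Subgroup.index_eq_card]
    show Nat.card (Abelianization R) = 4
    rw [hcardAb, hgood.2, hgood.1]
    rfl
  exfalso
  -- `commutator R` is generated by `c = a ^ (p ^ k)`
  set c := a ^ (p ^ k) with hc
  have hCc : commutator R = Subgroup.zpowers c := by
    refine le_antisymm (fun x hx => ?_) (Subgroup.zpowers_le.2 ((hπ _).1 (by rw [map_pow]; exact hexp _)))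
    obtain ⟨i, rfl⟩ := Subgroup.mem_zpowers_iff.1 (hCa hx)
    obtain ⟨⟨i', rfl⟩, -⟩ := hrel i 0 (by rw [zpow_zero, mul_one, ← map_zpow]; exact (hπ _).2 hx)
    exact ⟨i', by show c ^ i' = _; rw [hc, ← zpow_natCast, ← zpow_mul]; push_cast; rfl⟩
  set K := Subgroup.zpowers (c ^ p) with hK
  have hKchar : ∀ (α : MulAut R) (x : R), x ∈ K → α x ∈ K := by
    intro α x hx
    obtain ⟨m, hm'⟩ := Subgroup.mem_zpowers_iff.1
      (hCc ▸ commutator_apply_mem α (hCc ▸ Subgroup.mem_zpowers c : c ∈ commutator R) : α c ∈ Subgroup.zpowers c)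
    obtain ⟨i, rfl⟩ := Subgroup.mem_zpowers_iff.1 hx
    have e : α ((c ^ p) ^ i) = (c ^ p) ^ (m * i) := by
      rw [map_zpow, map_pow, ← hm', ← zpow_natCast, ← zpow_natCast, ← zpow_mul, ← zpow_mul, ← zpow_mul]
      congr 1
      ring
    rw [e]
    exact zpow_mem (Subgroup.mem_zpowers _) _
  haveI : K.Normal := ⟨fun x hx g => hKchar (MulAut.conj g) x hx⟩
  have hcK : c ∉ K := by
    intro h
    obtain ⟨m, hm'⟩ := Subgroup.mem_zpowers_iff.1 h
    obtain ⟨e, he⟩ := hR c
    have h1 : c ^ ((p : ℤ) * m - 1) = 1 := by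
      rw [zpow_sub, zpow_one, zpow_mul, zpow_natCast, hm', mul_inv_cancel]
    have h2 : (orderOf c : ℤ) ∣ (p : ℤ) * m - 1 := orderOf_dvd_iff_zpow_eq_one.2 h1
    obtain ⟨e', -, he'⟩ := (Nat.dvd_prime_pow hp.out).1 (orderOf_dvd_of_pow_eq_one he)
    rcases e' with _ | e'
    · exact hCbot (by rw [hCc, orderOf_eq_one_iff.1 (he'.trans (pow_zero p)), Subgroup.zpowers_one_eq_bot])
    · rw [he'] at h2
      have h3 : (p : ℤ) ∣ (p : ℤ) * m - 1 := (dvd_trans (by push_cast; exact dvd_pow_self _ (by omega)) h2)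
      have h4 : (p : ℤ) ∣ 1 := by simpa using dvd_sub (dvd_mul_right (p : ℤ) m) h3
      exact hp.out.not_dvd_one (by exact_mod_cast h4)
  let q := QuotientGroup.mk' K
  have hq : ∀ x, q x = 1 ↔ x ∈ K := fun x => QuotientGroup.eq_one_iff x
  have hqs : Function.Surjective q := QuotientGroup.mk'_surjective K
  have hcp : q c ^ p = 1 := by rw [← map_pow, hq]; exact Subgroup.mem_zpowers _
  have hPq : IsPGroup p (R ⧸ K) := hR.to_quotient K
  have hcn : (Subgroup.zpowers (q c)).Normal := by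
    rw [← MonoidHom.map_zpowers, ← hCc]
    exact Subgroup.Normal.map inferInstance q hqs
  have hcord : orderOf (q c) = p := orderOf_eq_prime hcp fun h => hcK ((hq c).1 h)
  have hcZ : Subgroup.zpowers (q c) ≤ Subgroup.center (R ⧸ K) := by
    haveI := hcn
    exact CfsgLib.PGroup.le_center_of_card_eq hPq _ (by rw [Nat.card_zpowers, hcord])
  have hcom : ∀ u v : R ⧸ K, ⁅u, v⁆ ∈ Subgroup.zpowers (q c) := by
    intro u v
    obtain ⟨x, rfl⟩ := hqs u
    obtain ⟨y, rfl⟩ := hqs v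
    rw [← map_commutatorElement, ← MonoidHom.map_zpowers, ← hCc]
    exact ⟨_, Subgroup.commutator_mem_commutator (Subgroup.mem_top x) (Subgroup.mem_top y), rfl⟩
  have hchoose : p ∣ (p ^ k).choose 2 := by
    by_cases hp2 : p = 2
    · have hk2 : 2 ≤ k := by
        by_contra h
        exact hgood ⟨hp2, by omega⟩
      subst hp2
      obtain ⟨d, hd⟩ := Nat.exists_eq_add_of_le hk2
      rw [hd, Nat.choose_two_right, pow_add,
        show 2 ^ 2 * 2 ^ d * (2 ^ 2 * 2 ^ d - 1) = 2 * (2 * 2 ^ d * (2 ^ 2 * 2 ^ d - 1)) by ring,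
        Nat.mul_div_cancel_left _ two_pos]
      exact Dvd.dvd.mul_right (Dvd.dvd.mul_right dvd_rfl _) _
    · exact (dvd_pow_self p hk0.ne').trans
        (CfsgLib.PGroup.dvd_choose_two_of_odd ((hp.out.odd_of_ne_two hp2).pow))
  let Ψ : R →* R ⧸ K :=
    { toFun := fun x => q x ^ p ^ k
      map_one' := by rw [map_one, one_pow]
      map_mul' := fun x y => by
        rw [map_mul]
        have h1 := hcom (q x) (q y)
        have h2 := CfsgLib.PGroup.mul_pow_mul_commutatorElement (a := q x) (b := q y)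
          ((Subgroup.mem_center_iff.1 (hcZ h1) _).symm) ((Subgroup.mem_center_iff.1 (hcZ h1) _).symm) (p ^ k)
        have h3 : ⁅q x, q y⁆ ^ (p ^ k).choose 2 = 1 := by
          obtain ⟨i, hi⟩ := Subgroup.mem_zpowers_iff.1 h1
          obtain ⟨d, hd⟩ := hchoose
          rw [← hi, ← zpow_natCast, ← zpow_mul, mul_comm, zpow_mul, hd, zpow_natCast, pow_mul, hcp,
            one_pow, one_zpow]
        rwa [h3, mul_one] at h2 }
  have hrange : Ψ.range ≤ Subgroup.zpowers (q c) := by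
    rintro _ ⟨x, rfl⟩
    show q x ^ p ^ k ∈ _
    rw [← map_pow, ← MonoidHom.map_zpowers, ← hCc]
    exact ⟨_, (hπ _).1 (by rw [map_pow]; exact hexp _), rfl⟩
  have hdvd : Ψ.ker.index ∣ p := by
    rw [Subgroup.index_ker]
    refine (Subgroup.card_dvd_of_le hrange).trans ?_
    rw [Nat.card_zpowers, hcord]
  rcases (Nat.dvd_prime hp.out).1 hdvd with h1 | h1
  · have ha : a ∈ Ψ.ker := by rw [Subgroup.index_eq_one.1 h1]; trivial
    have ha' : q a ^ p ^ k = 1 := ha
    rw [← map_pow, hq] at ha'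
    exact hcK ha'
  · refine not_invariant hA (fun α x hx => ?_) h1
    have hx' : q x ^ p ^ k = 1 := hx
    show q (α x) ^ p ^ k = 1
    rw [← map_pow, hq] at hx'
    rw [← map_pow, hq, ← map_pow α]
    exact hKchar α _ hx'

/-! ### The stabilizer of a maximal subgroup and the Frattini subgroup -/

omit hp [Finite R] in
/-- Automorphisms trivial on `R / M` and on `M / Φ(R)`. -/
def stabTwo (M : Subgroup R) (hM : frattini R ≤ M) : Subgroup (MulAut R) where
  carrier := {σ | (∀ x : R, x⁻¹ * σ x ∈ M) ∧ ∀ x ∈ M, x⁻¹ * σ x ∈ frattini R}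
  one_mem' := ⟨fun x => by simp, fun x _ => by simp⟩
  mul_mem' := by
    intro σ τ hσ hτ
    have e : ∀ x, x⁻¹ * (σ * τ) x = (x⁻¹ * τ x) * ((τ x)⁻¹ * σ (τ x)) := fun x => by
      rw [MulAut.mul_apply]; group
    refine ⟨fun x => ?_, fun x hx => ?_⟩
    · rw [e]; exact mul_mem (hτ.1 x) (hσ.1 _)
    · rw [e]
      refine mul_mem (hτ.2 x hx) (hσ.2 _ ?_)
      have := mul_mem hx (hτ.1 x)
      simpa using this
  inv_mem' := by
    intro σ hσ
    refine ⟨fun x => ?_, fun x hx => ?_⟩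
    · have := inv_mem (hσ.1 (σ⁻¹ x))
      simpa using this
    · have hy : σ⁻¹ x ∈ M := by
        have := mul_mem hx (inv_mem (hσ.1 (σ⁻¹ x)))
        simpa using this
      have := inv_mem (hσ.2 (σ⁻¹ x) hy)
      simpa using this

theorem isPGroup_stabTwo (hR : IsPGroup p R) (M : Subgroup R) (hM : frattini R ≤ M) :
    IsPGroup p (stabTwo M hM) := by
  rintro ⟨σ, hσ⟩
  let π := QuotientGroup.mk' (frattini R)
  have hpow : ∀ (n : ℕ) (x : R), π ((σ ^ n) x) = π x * π (x⁻¹ * σ x) ^ n := by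
    intro n
    induction n with
    | zero => intro x; simp
    | succ n ih =>
      intro x
      have hfix : π (σ (x⁻¹ * σ x)) = π (x⁻¹ * σ x) := by
        symm
        exact QuotientGroup.eq.2 (hσ.2 _ (hσ.1 x))
      rw [pow_succ, MulAut.mul_apply, ih,
        show (σ x)⁻¹ * σ (σ x) = σ (x⁻¹ * σ x) by rw [map_mul, map_inv], hfix, pow_succ', ← mul_assoc,
        ← map_mul, mul_inv_cancel_left]
  let T : Subgroup (MulAut R) := stabTwo (frattini R) le_rfl ⊓ stabTwo M hM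
  have hT : IsPGroup p T := by
    refine CfsgLib.PGroup.isPGroup_aut_trivial_frattini hR T fun τ hτ x => ?_
    have h := hτ.1.1 x
    have := (inferInstance : (frattini R).Normal).conj_mem _ h x
    simpa [mul_assoc] using this
  have hmem : σ ^ p ∈ T := by
    refine ⟨⟨fun x => ?_, fun x _ => ?_⟩, pow_mem hσ p⟩ <;>
    · apply QuotientGroup.eq.1
      show π x = π ((σ ^ p) x)
      rw [hpow, CfsgLib.PGroup.frattini_quotient_pow hR, mul_one]
  obtain ⟨t, ht⟩ := hT ⟨_, hmem⟩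
  refine ⟨t + 1, Subtype.ext ?_⟩
  have h := congrArg Subtype.val ht
  rw [pow_succ', SubmonoidClass.coe_pow, pow_mul]
  simpa using h

/-- For a normal subgroup `U` of index dividing `p` in `V`, an automorphism preserving both acts as a
power map modulo `U`. -/
theorem exists_power (U V : Subgroup R) [U.Normal] (hidx : U.relIndex V ∣ p) {σ : MulAut R}
    (hV : ∀ x ∈ V, σ x ∈ V) (hU : ∀ x, x ∈ U ↔ σ x ∈ U) : ∃ a : ℕ, (∀ x ∈ V,
      (σ x : R ⧸ U) = (x : R ⧸ U) ^ a) ∧ ((∃ x ∈ V, x ∉ U) → ¬ p ∣ a) := by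
  let π := QuotientGroup.mk' U
  have hker : π.ker = U := QuotientGroup.ker_mk' U
  have hcard : Nat.card (V.map π) ∣ p := by rw [← Subgroup.relIndex_ker, hker]; exact hidx
  by_cases htriv : ∀ x ∈ V, x ∈ U
  · refine ⟨1, fun x hx => ?_, fun ⟨x, hx, hxn⟩ => absurd (htriv x hx) hxn⟩
    rw [pow_one, (QuotientGroup.eq_one_iff _).2 (htriv _ (hV x hx)),
      (QuotientGroup.eq_one_iff _).2 (htriv _ hx)]
  push Not at htriv
  obtain ⟨x0, hx0, hx0n⟩ := htriv
  have hne : π x0 ≠ 1 := fun h => hx0n ((QuotientGroup.eq_one_iff _).1 h)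
  have hP : ∀ z ∈ V.map π, z ^ p = 1 := fun z hz => by
    obtain ⟨d, hd⟩ := hcard
    have h1 : (⟨z, hz⟩ : V.map π) ^ p = 1 := by rw [hd, pow_mul, pow_card_eq_one', one_pow]
    simpa using congrArg Subtype.val h1
  have hgen : Subgroup.zpowers (π x0) = V.map π := Subgroup.eq_of_le_of_card_ge
    (Subgroup.zpowers_le.2 ⟨x0, hx0, rfl⟩) (by
      rw [Nat.card_zpowers, orderOf_eq_prime (hP _ ⟨x0, hx0, rfl⟩) hne]
      exact Nat.le_of_dvd hp.out.pos hcard)
  have hpow : ∀ x ∈ V, ∃ t : ℕ, π x0 ^ t = π x := fun x hx =>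
    mem_powers_iff_mem_zpowers.2 (hgen.symm ▸ ⟨x, hx, rfl⟩)
  obtain ⟨a, ha⟩ := hpow _ (hV x0 hx0)
  refine ⟨a, fun x hx => ?_, fun _ => ?_⟩
  · obtain ⟨t, ht⟩ := hpow x hx
    have hl : σ x * (σ (x0 ^ t))⁻¹ ∈ U := by
      rw [← map_inv, ← map_mul, ← hU, ← QuotientGroup.eq_one_iff]
      show π (x * (x0 ^ t)⁻¹) = 1
      rw [map_mul, map_inv, map_pow, ht, mul_inv_cancel]
    have h1 : π (σ x) = π (σ x0) ^ t := by
      rw [← map_pow, ← map_pow σ, ← mul_inv_eq_one, ← map_inv, ← map_mul]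
      exact (QuotientGroup.eq_one_iff _).2 hl
    show π (σ x) = π x ^ a
    rw [h1, ← ha, ← ht, ← pow_mul, ← pow_mul, mul_comm]
  · rintro ⟨d, rfl⟩
    apply hx0n
    rw [hU, ← QuotientGroup.eq_one_iff]
    show π (σ x0) = 1
    rw [← ha, pow_mul, hP _ ⟨x0, hx0, rfl⟩, one_pow]

theorem abelian_exponent_of_fixed (hR : IsPGroup p R) {M : Subgroup R} (hM : M.index = p)
    (hΦ : (frattini R).index ≤ p * p) (H : Subgroup (MulAut R))
    (hinv : ∀ α ∈ H, ∀ x, x ∈ M ↔ α x ∈ M) (hcop : (Nat.card H).Coprime p) :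
    IsMulCommutative H ∧ ∀ h ∈ H, h ^ (p - 1) = 1 := by
  have hMc : IsCoatom M := CfsgLib.PGroup.isCoatom_of_index_eq hM
  haveI := CfsgLib.PGroup.normal_of_coatom hR hMc
  have hle : frattini R ≤ M := frattini_le_coatom hMc
  have hrel : (frattini R).relIndex M ∣ p := by
    have h := Subgroup.relIndex_mul_index hle
    rw [hM] at h
    have h2 : (frattini R).relIndex M ≤ p := Nat.le_of_mul_le_mul_right (h ▸ hΦ) hp.out.pos
    obtain ⟨e, he⟩ := IsPGroup.iff_card.1 hR
    obtain ⟨i, -, hi⟩ := (Nat.dvd_prime_pow hp.out).1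
      ((he ▸ ((frattini R).subgroupOf M).index_dvd_card.trans M.card_subgroup_dvd_card :) :
        (frattini R).relIndex M ∣ p ^ e)
    have hi' : (frattini R).relIndex M = p ^ i := hi
    rw [hi'] at h2 ⊢
    rcases i with _ | i
    · simp
    · rcases i with _ | i
      · simp
      · exfalso
        have : p ^ 2 ≤ p ^ (i + 1 + 1) := Nat.pow_le_pow_right hp.out.pos (by omega)
        nlinarith [hp.out.one_lt]
  have hΦinv : ∀ α : MulAut R, ∀ x, x ∈ frattini R ↔ α x ∈ frattini R := by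
    intro α x
    have h : (frattini R).Characteristic := inferInstance
    constructor
    · exact fun hx => (Subgroup.characteristic_iff_map_le.1 h α) ⟨x, hx, rfl⟩
    · intro hx
      have := (Subgroup.characteristic_iff_map_le.1 h α⁻¹) ⟨_, hx, rfl⟩
      simpa using this
  have htop : M.relIndex ⊤ ∣ p := by rw [Subgroup.relIndex_top_right, hM]
  have hone : ∀ σ : MulAut R, σ ∈ H → σ ∈ stabTwo M hle → σ = 1 := by
    intro σ hσH hσ
    obtain ⟨t, ht⟩ := isPGroup_stabTwo hR M hle ⟨σ, hσ⟩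
    exact orderOf_eq_one_iff.1 (Nat.eq_one_of_dvd_coprimes
      ((hcop.coprime_dvd_left (H.orderOf_dvd_natCard hσH)).pow_right t) dvd_rfl
      (orderOf_dvd_of_pow_eq_one (by simpa using congrArg Subtype.val ht)))
  have hs : ∀ α ∈ H, ∃ a b : ℕ, (∀ x : R, (α x : R ⧸ M) = (x : R ⧸ M) ^ a) ∧
      (∀ x ∈ M, (α x : R ⧸ frattini R) = (x : R ⧸ frattini R) ^ b) ∧
      ((∃ x, x ∉ M) → ¬ p ∣ a) ∧ ((∃ x ∈ M, x ∉ frattini R) → ¬ p ∣ b) := by
    intro α hα
    obtain ⟨a, ha, ha'⟩ := exists_power M ⊤ htop (fun _ _ => trivial) (hinv α hα)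
    obtain ⟨b, hb, hb'⟩ := exists_power (frattini R) M hrel (fun x hx => (hinv α hα x).1 hx) (hΦinv α)
    exact ⟨a, b, fun x => ha x trivial, hb, fun ⟨x, hx⟩ => ha' ⟨x, trivial, hx⟩, hb'⟩
  refine ⟨⟨⟨fun g h => Subtype.ext ?_⟩⟩, fun h hh => hone _ (pow_mem hh _) ?_⟩
  · obtain ⟨a, b, ha, hb, -, -⟩ := hs g g.2
    obtain ⟨a', b', ha', hb', -, -⟩ := hs h h.2
    have hmem : ((h : MulAut R) * g)⁻¹ * (g * h) ∈ stabTwo M hle := by
      have key : ∀ (N : Subgroup R) [N.Normal] (x : R), (∀ (σ : MulAut R), σ ∈ H → ∀ y, y ∈ N ↔ σ y ∈ N) →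
          ((g : MulAut R) ((h : MulAut R) x) : R ⧸ N) = ((h : MulAut R) ((g : MulAut R) x) : R ⧸ N) →
          x⁻¹ * (((h : MulAut R) * g)⁻¹ * (g * h)) x ∈ N := by
        intro N _ x hN he
        rw [hN _ (mul_mem h.2 g.2)]
        rw [map_mul, map_inv]
        simp only [MulAut.mul_apply, MulAut.apply_inv_self, mul_inv_rev, MulAut.inv_apply,
          MulEquiv.apply_symm_apply]
        exact QuotientGroup.eq.1 he.symm
      refine ⟨fun x => key M x hinv ?_, fun x hx => key (frattini R) x (fun σ _ => hΦinv σ) ?_⟩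
      · rw [ha, ha', ha', ha, ← pow_mul, ← pow_mul, mul_comm]
      · rw [hb _ ((hinv h h.2 x).1 hx), hb' x hx, hb' _ ((hinv g g.2 x).1 hx), hb x hx, ← pow_mul,
          ← pow_mul, mul_comm]
    exact (inv_mul_eq_one.1 (hone _ (mul_mem (inv_mem (mul_mem h.2 g.2)) (mul_mem g.2 h.2)) hmem)).symm
  · obtain ⟨a, b, ha, hb, ha0, hb0⟩ := hs h hh
    have hmod : ∀ c : ℕ, ¬ p ∣ c → ∀ {V : Type _} [Group V] (v : V), v ^ p = 1 → v ^ c ^ (p - 1) = v := by
      intro c hc V _ v hv
      have := Nat.ModEq.pow_totient ((Nat.Prime.coprime_iff_not_dvd Fact.out).2 hc).symm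
      rw [Nat.totient_prime Fact.out] at this
      rw [pow_eq_pow_mod _ hv, this, ← pow_eq_pow_mod _ hv, pow_one]
    have hit : ∀ n : ℕ, (∀ x : R, ((h ^ n) x : R ⧸ M) = (x : R ⧸ M) ^ a ^ n) ∧
        ∀ x ∈ M, (h ^ n) x ∈ M ∧ ((h ^ n) x : R ⧸ frattini R) = (x : R ⧸ frattini R) ^ b ^ n := by
      intro n
      induction n with
      | zero => simp
      | succ n ih =>
        refine ⟨fun x => ?_, fun x hx => ?_⟩
        · rw [pow_succ', MulAut.mul_apply, ha, ih.1, ← pow_mul, pow_succ]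
        · rw [pow_succ', MulAut.mul_apply]
          exact ⟨(hinv h hh _).1 (ih.2 x hx).1, by rw [hb _ (ih.2 x hx).1, (ih.2 x hx).2, ← pow_mul, pow_succ]⟩
    refine ⟨fun x => ?_, fun x hx => ?_⟩
    · apply QuotientGroup.eq.1
      by_cases hxM : x ∈ M
      · rw [(hit _).1, (QuotientGroup.eq_one_iff x).2 hxM, one_pow]
      · rw [(hit _).1, hmod a (ha0 ⟨x, hxM⟩) _ (by
          rw [← QuotientGroup.mk_pow, QuotientGroup.eq_one_iff, ← hM]; exact M.pow_index_mem x)]
    · apply QuotientGroup.eq.1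
      by_cases hxΦ : x ∈ frattini R
      · rw [((hit _).2 x hx).2, (QuotientGroup.eq_one_iff x).2 hxΦ, one_pow]
      · rw [((hit _).2 x hx).2, hmod b (hb0 ⟨x, hx, hxΦ⟩) _ (CfsgLib.PGroup.frattini_quotient_pow hR _)]

end CfsgLib.Fus.Supersoluble
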