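import Mathlib
import Cfsg.Agent.Eq.Def_CaseTheorems
import Cfsg.Agent.Fusion.Alperin.Criteria
import Cfsg.Agent.Fus.Supersoluble.MetaAut
import Cfsg.Agent.FusionTwo.Common

/-!
Centric radical subgroups of saturated systems over metacyclic `p`-groups.
-/

set_option autoImplicit false

namespace CfsgLib.Fus.Supersoluble

open Cfsg CfsgLib.Fus
open Cfsg.FusionSystem (normalizerIn centralizerIn)
open scoped commutatorElement

variable {Ω : Type*} [Group Ω] {S : Subgroup Ω}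

/-- `a` generates a normal subgroup of `S` with cyclic quotient generated by the image of `b`. -/
structure MetaGens (S : Subgroup Ω) (a b : Ω) : Prop where
  a_mem : a ∈ S
  b_mem : b ∈ S
  conj : ∀ g ∈ S, g * a * g⁻¹ ∈ Subgroup.zpowers a
  gen : ∀ x ∈ S, ∃ i j : ℤ, x = a ^ i * b ^ j

theorem exists_metaGens (hm : Cfsg.IsMetacyclic S) : ∃ a b, MetaGens S a b := by
  obtain ⟨a, b, hn, -, hgen⟩ := exists_two_gens hm
  refine ⟨a, b, a.2, b.2, fun g hg => ?_, fun x hx => ?_⟩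
  · obtain ⟨i, hi⟩ := Subgroup.mem_zpowers_iff.1 (hn.conj_mem a (Subgroup.mem_zpowers a) ⟨g, hg⟩)
    exact ⟨i, by simpa using congrArg Subtype.val hi⟩
  · obtain ⟨i, j, h⟩ := hgen ⟨x, hx⟩
    exact ⟨i, j, by simpa using congrArg Subtype.val h⟩

namespace MetaGens

variable {a b : Ω}

theorem zpowers_le (D : MetaGens S a b) : Subgroup.zpowers a ≤ S := Subgroup.zpowers_le.2 D.a_mem

theorem conj_zpow (D : MetaGens S a b) {g : Ω} (hg : g ∈ S) {n : Ω} (hn : n ∈ Subgroup.zpowers a) :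
    g * n * g⁻¹ ∈ Subgroup.zpowers a := by
  obtain ⟨i, rfl⟩ := Subgroup.mem_zpowers_iff.1 hn
  rw [← _root_.conj_zpow]
  exact zpow_mem (D.conj g hg) i

/-- Commutators lie in the cyclic normal subgroup. -/
theorem comm_mem (D : MetaGens S a b) {x y : Ω} (hx : x ∈ S) (hy : y ∈ S) :
    x * y * x⁻¹ * y⁻¹ ∈ Subgroup.zpowers a := by
  haveI : (Subgroup.zpowers (⟨a, D.a_mem⟩ : S)).Normal := ⟨fun n hn g => by
    obtain ⟨i, rfl⟩ := Subgroup.mem_zpowers_iff.1 hn
    obtain ⟨j, hj⟩ := Subgroup.mem_zpowers_iff.1 (D.conj g g.2)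
    refine ⟨j * i, Subtype.ext ?_⟩
    simp only [Subgroup.coe_mul, Subgroup.coe_inv, SubgroupClass.coe_zpow]
    rw [zpow_mul, hj, ← _root_.conj_zpow]⟩
  let π := QuotientGroup.mk' (Subgroup.zpowers (⟨a, D.a_mem⟩ : S))
  have hb : ∀ w : S, π w ∈ Subgroup.zpowers (π ⟨b, D.b_mem⟩) := fun w => by
    obtain ⟨i, j, h⟩ := D.gen w w.2
    have e : w = (⟨a, D.a_mem⟩ : S) ^ i * (⟨b, D.b_mem⟩ : S) ^ j := Subtype.ext (by simpa using h)
    rw [e, map_mul, map_zpow, map_zpow,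
      show π ⟨a, D.a_mem⟩ = 1 from (QuotientGroup.eq_one_iff _).2 (Subgroup.mem_zpowers _), one_zpow, one_mul]
    exact zpow_mem (Subgroup.mem_zpowers _) _
  obtain ⟨i, hi⟩ := hb ⟨x, hx⟩
  obtain ⟨j, hj⟩ := hb ⟨y, hy⟩
  have h : π ((⟨x, hx⟩ : S) * ⟨y, hy⟩ * (⟨x, hx⟩ : S)⁻¹ * (⟨y, hy⟩ : S)⁻¹) = 1 := by
    simp only [map_mul, map_inv]
    rw [← hi, ← hj]
    group
  obtain ⟨m, hm⟩ := Subgroup.mem_zpowers_iff.1 ((QuotientGroup.eq_one_iff _).1 h)
  exact ⟨m, by simpa using congrArg Subtype.val hm⟩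

end MetaGens

theorem isMetacyclic_of_le {a b : Ω} (D : MetaGens S a b) {Q : Subgroup Ω} (hQ : Q ≤ S) :
    Cfsg.IsMetacyclic Q := by
  haveI hn : ((Subgroup.zpowers a).subgroupOf Q).Normal :=
    ⟨fun n hn g => D.conj_zpow (hQ g.2) hn⟩
  haveI hn' : ((Subgroup.zpowers a).subgroupOf S).Normal :=
    ⟨fun n hn g => D.conj_zpow g.2 hn⟩
  refine ⟨(Subgroup.zpowers a).subgroupOf Q, hn, ?_, ?_⟩
  · refine isCyclic_of_injective
      ({ toFun := fun x => ⟨(x : Q), x.2⟩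
         map_one' := rfl
         map_mul' := fun _ _ => rfl } : ((Subgroup.zpowers a).subgroupOf Q) →* Subgroup.zpowers a) ?_
    intro x y h
    exact Subtype.ext (Subtype.ext (congrArg (fun z : Subgroup.zpowers a => (z : Ω)) h))
  · haveI : IsCyclic (S ⧸ (Subgroup.zpowers a).subgroupOf S) := by
      refine ⟨⟨QuotientGroup.mk' ((Subgroup.zpowers a).subgroupOf S) ⟨b, D.b_mem⟩, fun q => ?_⟩⟩
      obtain ⟨w, rfl⟩ := QuotientGroup.mk'_surjective _ q
      obtain ⟨i, j, h⟩ := D.gen w w.2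
      have e : w = (⟨a ^ i, zpow_mem D.a_mem i⟩ : S) * (⟨b, D.b_mem⟩ : S) ^ j :=
        Subtype.ext (by simpa using h)
      refine ⟨j, ?_⟩
      show (QuotientGroup.mk' ((Subgroup.zpowers a).subgroupOf S) ⟨b, D.b_mem⟩) ^ j = QuotientGroup.mk' _ w
      rw [e, map_mul, map_zpow, show QuotientGroup.mk' ((Subgroup.zpowers a).subgroupOf S)
        ⟨a ^ i, zpow_mem D.a_mem i⟩ = 1 from (QuotientGroup.eq_one_iff _).2 ⟨i, rfl⟩, one_mul]
    refine isCyclic_of_injective (QuotientGroup.map _ ((Subgroup.zpowers a).subgroupOf S)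
      (Subgroup.inclusion hQ) (fun x (hx : (x : Ω) ∈ Subgroup.zpowers a) => hx)) ?_
    rw [injective_iff_map_eq_one]
    intro q hq
    obtain ⟨x, rfl⟩ := QuotientGroup.mk_surjective q
    have hq' : (QuotientGroup.mk (Subgroup.inclusion hQ x) : S ⧸ (Subgroup.zpowers a).subgroupOf S) = 1 := hq
    exact (QuotientGroup.eq_one_iff x).2 ((QuotientGroup.eq_one_iff (Subgroup.inclusion hQ x)).1 hq' :)

section Radical

variable [Finite S] {p : ℕ} [hp : Fact p.Prime]

/-- A `p`-power order automorphism is trivial on sections of order dividing `p`. -/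
theorem power_trivial {R : Type*} [Group R] [Finite R] (U V : Subgroup R) [U.Normal]
    (hidx : U.relIndex V ∣ p) {σ : MulAut R} (hV : ∀ x ∈ V, σ x ∈ V) (hU : ∀ x, x ∈ U ↔ σ x ∈ U)
    {t : ℕ} (ht : σ ^ p ^ t = 1) : ∀ x ∈ V, x⁻¹ * σ x ∈ U := by
  intro x hx
  by_cases hxU : x ∈ U
  · exact mul_mem (inv_mem hxU) ((hU x).1 hxU)
  obtain ⟨a, ha, -⟩ := exists_power U V hidx hV hU
  apply QuotientGroup.eq.1
  have hit : ∀ n : ℕ, (σ ^ n) x ∈ V ∧ ((σ ^ n) x : R ⧸ U) = (x : R ⧸ U) ^ a ^ n := by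
    intro n
    induction n with
    | zero => simp [hx]
    | succ n ih =>
      rw [pow_succ', MulAut.mul_apply]
      exact ⟨hV _ ih.1, by rw [ha _ ih.1, ih.2, ← pow_mul, pow_succ]⟩
  have hord : orderOf (x : R ⧸ U) = p := by
    refine orderOf_eq_prime ?_ (fun h => hxU ((QuotientGroup.eq_one_iff x).1 h))
    have hcard : Nat.card (V.map (QuotientGroup.mk' U)) ∣ p := by
      rw [← Subgroup.relIndex_ker, QuotientGroup.ker_mk']; exact hidx
    exact orderOf_dvd_iff_pow_eq_one.1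
      ((Subgroup.orderOf_dvd_natCard (V.map (QuotientGroup.mk' U)) (⟨x, hx, rfl⟩ : (x : R ⧸ U) ∈ V.map (QuotientGroup.mk' U))).trans hcard)
  have h1 := (hit (p ^ t)).2
  rw [ht, MulAut.one_apply] at h1
  have h2 : a ^ p ^ t ≡ 1 [MOD p] := by
    have := pow_eq_pow_iff_modEq.1 (h1.symm.trans (pow_one _).symm)
    rwa [hord] at this
  have h3 : a ≡ 1 [MOD p] := by
    rw [← ZMod.natCast_eq_natCast_iff] at h2 ⊢
    rwa [Nat.cast_pow, ZMod.pow_card_pow] at h2
  rw [ha x hx]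
  have := (pow_eq_pow_iff_modEq (x := (x : R ⧸ U)) (n := a) (m := 1)).2 (by rw [hord]; exact h3)
  rw [this, pow_one]

variable {F : Cfsg.FusionSystem S} {Q : Subgroup Ω}

theorem mem_of_conj_stabTwo (hS : IsPGroup p S) (hQ : Fusion.Alperin.IsAlperinSubgroup F p Q)
    (M : Subgroup Q) (hM : frattini Q ≤ M) (hinv : ∀ α ∈ F.autGroup Q, ∀ x ∈ M, α x ∈ M)
    {g : Ω} (hg : g ∈ normalizerIn S Q) (hgM : conjAut (P := Q) hg.2 ∈ stabTwo M hM) : g ∈ Q := by
  haveI : Finite Q := finite_of_le hQ.centric.1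
  refine Fusion.Alperin.mem_of_mem_pCore_of_radical hQ.centric hQ.radical hg fun hm => ?_
  refine CharP.le_pCore (N := (stabTwo M hM).subgroupOf (F.autGroup Q)) ?_
    (IsPGroup.comap_subtype (isPGroup_stabTwo (hS.to_le hQ.centric.1) M hM)) hgM
  refine ⟨fun σ hσ c => ?_⟩
  have hΦc : ∀ x ∈ frattini Q, (c : MulAut Q) x ∈ frattini Q := fun x hx => by
    have h : (frattini Q).Characteristic := inferInstance
    exact (Subgroup.characteristic_iff_map_le.1 h (c : MulAut Q)) ⟨x, hx, rfl⟩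
  have e : ∀ x : Q, x⁻¹ * ((c : MulAut Q) * σ * (c : MulAut Q)⁻¹) x =
      (c : MulAut Q) (((c : MulAut Q)⁻¹ x)⁻¹ * (σ : MulAut Q) ((c : MulAut Q)⁻¹ x)) := fun x => by
    simp [MulAut.mul_apply]
  refine ⟨fun x => ?_, fun x hx => ?_⟩
  · show x⁻¹ * ((c : MulAut Q) * σ * (c : MulAut Q)⁻¹) x ∈ M
    rw [e]
    exact hinv _ c.2 _ (hσ.1 _)
  · show x⁻¹ * ((c : MulAut Q) * σ * (c : MulAut Q)⁻¹) x ∈ frattini Q
    rw [e]
    exact hΦc _ (hσ.2 _ (hinv _ (inv_mem c.2) _ hx))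

/-- An element stabilizing `Q` modulo `p`-th powers lies in `Q`. -/
theorem mem_of_conj_pow (hS : IsPGroup p S) (hQ : Fusion.Alperin.IsAlperinSubgroup F p Q)
    {g : Ω} (hg : g ∈ normalizerIn S Q) (h : ∀ x ∈ Q, ∃ y ∈ Q, g * x * g⁻¹ = x * y ^ p) : g ∈ Q := by
  haveI : Finite Q := finite_of_le hQ.centric.1
  have key : ∀ x : Q, x⁻¹ * conjAut (P := Q) hg.2 x ∈ frattini Q := fun x => by
    obtain ⟨y, hy, e⟩ := h x x.2
    have : x⁻¹ * conjAut (P := Q) hg.2 x = (⟨y, hy⟩ : Q) ^ p := Subtype.ext (by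
      rw [Subgroup.coe_mul, conjAut_apply, e]; simp)
    rw [this]
    exact CfsgLib.PGroup.pow_prime_mem_frattini (hS.to_le hQ.centric.1) _
  exact mem_of_conj_stabTwo hS hQ (frattini Q) le_rfl
    (fun α _ x hx => (Subgroup.characteristic_iff_map_le.1
      (inferInstance : (frattini Q).Characteristic) α) ⟨x, hx, rfl⟩) hg ⟨key, fun x _ => key x⟩

theorem nontrivial_of_centric (hQ : F.IsCentric Q) (hne : Q ≠ S) : Nontrivial Q := by
  rw [Subgroup.nontrivial_iff_ne_bot]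
  rintro rfl
  apply hne
  refine le_antisymm bot_le fun x hx => ?_
  exact hQ.2 ⊥ (isConj_refl F bot_le) ⟨hx, Subgroup.mem_centralizer_iff.2 fun y hy => by
    rw [Subgroup.mem_bot.1 hy, one_mul, mul_one]⟩

theorem movesMaximals (hS : IsPGroup p S) (hm : Cfsg.IsMetacyclic S)
    (hQ : Fusion.Alperin.IsAlperinSubgroup F p Q) (hne : Q ≠ S) : MovesMaximals (F.autGroup Q) := by
  haveI : Finite Q := finite_of_le hQ.centric.1
  obtain ⟨a, b, D⟩ := exists_metaGens hm
  have hQp := hS.to_le hQ.centric.1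
  intro M hM
  by_contra hcon
  push Not at hcon
  obtain ⟨g, hgN, hgQ⟩ := Fusion.Alperin.exists_normalizing_not_mem hS hQ.centric.1 hne
  haveI := CfsgLib.PGroup.normal_of_coatom hQp hM
  have hle : frattini Q ≤ M := frattini_le_coatom hM
  have hidx := CfsgLib.PGroup.index_of_coatom hQp hM
  have hrel : (frattini Q).relIndex M ∣ p := by
    have h := Subgroup.relIndex_mul_index hle
    rw [hidx] at h
    have h2 : (frattini Q).relIndex M ≤ p :=
      Nat.le_of_mul_le_mul_right (h ▸ frattini_index_le hQp (isMetacyclic_of_le D hQ.centric.1)) hp.out.pos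
    obtain ⟨e, he⟩ := IsPGroup.iff_card.1 (hQp.to_subgroup M)
    obtain ⟨i, -, hi⟩ := (Nat.dvd_prime_pow hp.out).1
      ((he ▸ ((frattini Q).subgroupOf M).index_dvd_card :) : (frattini Q).relIndex M ∣ p ^ e)
    have hi' : (frattini Q).relIndex M = p ^ i := hi
    rw [hi'] at h2 ⊢
    rcases i with _ | i
    · simp
    · rcases i with _ | i
      · simp
      · exfalso
        have : p ^ 2 ≤ p ^ (i + 1 + 1) := Nat.pow_le_pow_right hp.out.pos (by omega)
        nlinarith [hp.out.one_lt]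
  set σ := conjAut (P := Q) hgN.2
  have hσ : σ ∈ F.autGroup Q :=
    autInducedBy_le_autGroup F hQ.centric.1 (conjAut_mem_autInducedBy hgN.2 hgN.1)
  obtain ⟨t, ht⟩ : ∃ t, σ ^ p ^ t = 1 := by
    obtain ⟨t, ht⟩ := isPGroup_autInducedBy hS Q ⟨σ, conjAut_mem_autInducedBy hgN.2 hgN.1⟩
    exact ⟨t, by simpa using congrArg Subtype.val ht⟩
  have hinvM : ∀ x, x ∈ M ↔ σ x ∈ M := fun x => ⟨hcon σ hσ x, fun h => by
    simpa using hcon σ⁻¹ (inv_mem hσ) _ h⟩
  have hinvΦ : ∀ x, x ∈ frattini Q ↔ σ x ∈ frattini Q := by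
    have h : (frattini Q).Characteristic := inferInstance
    refine fun x => ⟨fun hx => (Subgroup.characteristic_iff_map_le.1 h σ) ⟨x, hx, rfl⟩, fun hx => ?_⟩
    have := (Subgroup.characteristic_iff_map_le.1 h σ⁻¹) ⟨_, hx, rfl⟩
    simpa using this
  exact hgQ (mem_of_conj_stabTwo hS hQ M hle hcon hgN
    ⟨fun x => power_trivial M ⊤ (by rw [Subgroup.relIndex_top_right, hidx]) (fun _ _ => trivial) hinvM ht x trivial,
     power_trivial (frattini Q) M hrel (fun x => (hinvM x).1) hinvΦ ht⟩)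

/-- Centric radical proper subgroups only occur for `p = 2`, with abelianization of order four. -/
theorem four_of_alperin (hS : IsPGroup p S) (hm : Cfsg.IsMetacyclic S) (hF : F.IsSaturated p)
    (hQ : Fusion.Alperin.IsAlperinSubgroup F p Q) (hne : Q ≠ S) :
    p = 2 ∧ (commutator Q).index = 4 := by
  classical
  haveI : Finite Q := finite_of_le hQ.centric.1
  haveI := nontrivial_of_centric hQ.centric hne
  have hQS := hQ.centric.1
  obtain ⟨a, b, D⟩ := exists_metaGens hm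
  have hA := movesMaximals hS hm hQ hne
  rcases homocyclic_or_four (hS.to_le hQS) (isMetacyclic_of_le D hQS) hA with
    ⟨hab, k, hk, hcard, hexpQ, -⟩ | h
  swap
  · exact h
  by_cases hfin : p = 2 ∧ k = 1
  · refine ⟨hfin.1, ?_⟩
    have hC : commutator Q = ⊥ := commutator_eq_bot_iff Q |>.2 hab
    rw [hC, Subgroup.index_bot, hcard, hfin.1, hfin.2]
    rfl
  exfalso
  have hcomm : ∀ x ∈ Q, ∀ y ∈ Q, x * y = y * x := fun x hx y hy =>
    congrArg Subtype.val (hab.is_comm.comm (⟨x, hx⟩ : Q) ⟨y, hy⟩)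
  have hexp : ∀ x ∈ Q, x ^ p ^ k = 1 := fun x hx => by
    simpa using congrArg Subtype.val (hexpQ ⟨x, hx⟩)
  set N := Subgroup.zpowers a with hN
  have hNS : N ≤ S := D.zpowers_le
  haveI hNn : (N.subgroupOf S).Normal := ⟨fun n hn g => D.conj_zpow g.2 hn⟩
  let π : Q →* S ⧸ N.subgroupOf S := (QuotientGroup.mk' _).comp (Subgroup.inclusion hQS)
  have hπ : ∀ x : Q, π x = 1 ↔ (x : Ω) ∈ N := fun x => QuotientGroup.eq_one_iff _
  haveI hQcyc : IsCyclic (S ⧸ N.subgroupOf S) := by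
    refine ⟨⟨QuotientGroup.mk' (N.subgroupOf S) ⟨b, D.b_mem⟩, fun q => ?_⟩⟩
    obtain ⟨w, rfl⟩ := QuotientGroup.mk'_surjective _ q
    obtain ⟨i, j, h⟩ := D.gen w w.2
    have e : w = (⟨a ^ i, zpow_mem D.a_mem i⟩ : S) * (⟨b, D.b_mem⟩ : S) ^ j :=
      Subtype.ext (by simpa using h)
    refine ⟨j, ?_⟩
    show (QuotientGroup.mk' (N.subgroupOf S) ⟨b, D.b_mem⟩) ^ j = QuotientGroup.mk' _ w
    rw [e, map_mul, map_zpow, show QuotientGroup.mk' (N.subgroupOf S)
      ⟨a ^ i, zpow_mem D.a_mem i⟩ = 1 from (QuotientGroup.eq_one_iff _).2 ⟨i, rfl⟩, one_mul]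
  obtain ⟨e, he⟩ : ∃ e, Subgroup.zpowers e = Q ⊓ N := by
    haveI : IsCyclic ↥(Q ⊓ N) := isCyclic_of_injective
      (Subgroup.inclusion (inf_le_right : Q ⊓ N ≤ N)) (Subgroup.inclusion_injective _)
    exact (Q ⊓ N).isCyclic_iff_exists_zpowers_eq_top.1 inferInstance
  have heQN : e ∈ Q ⊓ N := he ▸ Subgroup.mem_zpowers e
  have heQ : e ∈ Q := heQN.1
  have heN : e ∈ N := heQN.2
  haveI : Finite N := finite_of_le hNS
  haveI : Finite (Subgroup.zpowers e) := finite_of_le ((Subgroup.zpowers_le.2 heQ).trans hQS)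
  obtain ⟨⟨_, f0, rfl⟩, hf0⟩ := IsCyclic.exists_generator (α := π.range)
  have hker : Nat.card π.ker = orderOf e := by
    rw [← Nat.card_zpowers, he]
    exact Nat.card_congr ⟨fun x => ⟨(x : Q), (x : Q).2, (hπ _).1 x.2⟩,
      fun x => ⟨⟨x, x.2.1⟩, (hπ _).2 x.2.2⟩, fun x => rfl, fun x => rfl⟩
  have horde : orderOf e ∣ p ^ k := orderOf_dvd_of_pow_eq_one (hexp e heQ)
  have hordf : orderOf (π f0) ∣ p ^ k :=
    orderOf_dvd_of_pow_eq_one (by rw [← map_pow, hexpQ, map_one])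
  have hrange : Nat.card π.range = orderOf (π f0) := by
    rw [← orderOf_eq_card_of_forall_mem_zpowers hf0, ← Subgroup.orderOf_coe]
  have hprod : Nat.card Q = orderOf e * orderOf (π f0) := by
    rw [← hker, ← hrange, ← Subgroup.index_ker, Subgroup.card_mul_index]
  have hoe : orderOf e = p ^ k := by
    refine le_antisymm (Nat.le_of_dvd (pow_pos hp.out.pos k) horde) ?_
    have h1 := Nat.le_of_dvd (pow_pos hp.out.pos k) hordf
    rw [hcard] at hprod
    by_contra h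
    exact (Nat.mul_lt_mul_of_lt_of_le (not_le.1 h) h1 (pow_pos hp.out.pos k)).ne' hprod
  have hof : orderOf (π f0) = p ^ k := by
    rw [hcard, hoe] at hprod
    exact (Nat.eq_of_mul_eq_mul_left (pow_pos hp.out.pos k) hprod).symm
  have hdec : ∀ x ∈ Q, ∃ i j : ℤ, x = e ^ i * (f0 : Ω) ^ j := by
    intro x hx
    obtain ⟨j, hj⟩ := Subgroup.mem_zpowers_iff.1 (hf0 ⟨π ⟨x, hx⟩, _, rfl⟩)
    have hj' : π f0 ^ j = π ⟨x, hx⟩ := by simpa using congrArg Subtype.val hj
    have h1 : ((⟨x, hx⟩ * (f0 ^ j)⁻¹ : Q) : Ω) ∈ Q ⊓ N :=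
      ⟨(⟨x, hx⟩ * (f0 ^ j)⁻¹ : Q).2, (hπ _).1 (by rw [map_mul, map_inv, map_zpow, hj', mul_inv_cancel])⟩
    rw [← he] at h1
    obtain ⟨i, hi⟩ := Subgroup.mem_zpowers_iff.1 h1
    refine ⟨i, j, ?_⟩
    simp only [Subgroup.coe_mul, Subgroup.coe_inv, SubgroupClass.coe_zpow] at hi
    rw [hi, inv_mul_cancel_right]
  have hcover : ∀ g ∈ S, ∀ x ∈ Q, g ∈ Subgroup.normalizer (Q : Set Ω) →
      g * x * g⁻¹ * x⁻¹ ∈ Subgroup.zpowers e := fun g hg x hx hgn => by
    rw [he]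
    exact ⟨mul_mem ((Subgroup.mem_normalizer_iff.1 hgn x).1 hx) (Q.inv_mem hx), D.comm_mem hg (hQS hx)⟩
  -- an element outside `Q` of order `p` modulo `Q`
  obtain ⟨g0, hg0, hg0Q⟩ := Fusion.Alperin.exists_normalizing_not_mem hS hQS hne
  obtain ⟨u0, hu0, hu0Q, hu0p⟩ : ∃ u, u ∈ normalizerIn S Q ∧ u ∉ Q ∧ u ^ p ∈ Q := by
    have hex : ∃ t, g0 ^ p ^ t ∈ Q := by
      obtain ⟨t, ht⟩ := hS ⟨g0, hg0.1⟩
      exact ⟨t, by rw [show g0 ^ p ^ t = 1 by simpa using congrArg Subtype.val ht]; exact one_mem _⟩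
    have hpos : 0 < Nat.find hex := by
      rw [Nat.pos_iff_ne_zero]
      intro h
      have := Nat.find_spec hex
      rw [h, pow_zero, pow_one] at this
      exact hg0Q this
    refine ⟨g0 ^ p ^ (Nat.find hex - 1), pow_mem hg0 _, Nat.find_min hex (by omega), ?_⟩
    rw [← pow_mul, ← pow_succ, Nat.sub_add_cancel hpos]
    exact Nat.find_spec hex
  by_cases hcase : ∃ u, u ∈ normalizerIn S Q ∧ u ∈ N ∧ u ∉ Q ∧ u ^ p ∈ Q
  · obtain ⟨u, hu, huN, huQ, hup⟩ := hcase
    have hupe : u ^ p ∈ Subgroup.zpowers e := he ▸ ⟨hup, pow_mem huN _⟩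
    have hNcyc : IsCyclic N := inferInstance
    have huord : u ^ p ^ k ≠ 1 := by
      intro h
      apply huQ
      letI := hNcyc.commGroup
      have hle : (Subgroup.zpowers (⟨e, heN⟩ : N)) ≤ (powMonoidHom (p ^ k) : N →* N).ker :=
        Subgroup.zpowers_le.2 (Subtype.ext (by simpa using hexp e heQ))
      have heq := Subgroup.eq_of_le_of_card_ge hle (by
        rw [Nat.card_zpowers, ← Subgroup.orderOf_coe, hoe, IsCyclic.card_powMonoidHom_ker]
        exact Nat.le_of_dvd (pow_pos hp.out.pos k) (Nat.gcd_dvd_right _ _))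
      obtain ⟨i, hi⟩ : (⟨u, huN⟩ : N) ∈ Subgroup.zpowers (⟨e, heN⟩ : N) :=
        heq ▸ (Subtype.ext (by simpa using h) : powMonoidHom (p ^ k) (⟨u, huN⟩ : N) = 1)
      have : u = e ^ i := by simpa using (congrArg Subtype.val hi).symm
      rw [this]
      exact zpow_mem heQ i
    have houp : orderOf (u ^ p) = p ^ k := by
      obtain ⟨e', hle, he'⟩ := (Nat.dvd_prime_pow hp.out).1
        (orderOf_dvd_of_pow_eq_one (hexp _ hup))
      rcases Nat.lt_or_ge e' k with hlt | hge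
      · exfalso
        apply huord
        obtain ⟨d, hd⟩ := Nat.exists_eq_add_of_lt hlt
        rw [show p ^ k = p * p ^ (e' + d) by rw [← pow_succ', hd], pow_mul, pow_add, pow_mul, ← he',
          pow_orderOf_eq_one, one_pow]
      · rw [he', le_antisymm hle hge]
    have huper : Subgroup.zpowers (u ^ p) = Subgroup.zpowers e :=
      Subgroup.eq_of_le_of_card_ge (Subgroup.zpowers_le.2 hupe) (by
        rw [Nat.card_zpowers, Nat.card_zpowers, houp, hoe])
    have hou : orderOf u = p ^ (k + 1) := by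
      refine orderOf_eq_prime_pow huord ?_
      rw [pow_succ', pow_mul]
      exact hexp _ hup
    -- conjugates of `u` by elements of `Q`
    have hconj : ∀ x ∈ Q, ∃ c : ℤ, x * u * x⁻¹ = u * (u ^ p) ^ c ∧
        ((p : ℤ) ^ (k + 1) ∣ (p : ℤ) * ((p : ℤ) * c)) := by
      intro x hx
      have h1 : u⁻¹ * (x * u * x⁻¹) ∈ Subgroup.zpowers (u ^ p) := by
        rw [huper, he]
        refine ⟨?_, mul_mem (N.inv_mem huN) (D.conj_zpow (hQS hx) huN)⟩
        rw [show u⁻¹ * (x * u * x⁻¹) = (u⁻¹ * x * u) * x⁻¹ by group]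
        exact mul_mem ((Subgroup.mem_normalizer_iff''.1 hu.2 x).1 hx) (Q.inv_mem hx)
      obtain ⟨c, hc⟩ := Subgroup.mem_zpowers_iff.1 h1
      refine ⟨c, by rw [hc, mul_inv_cancel_left], ?_⟩
      have h2 : (x * u * x⁻¹) ^ p = u ^ p := by
        rw [conj_pow, hcomm x hx _ hup, mul_inv_cancel_right]
      rw [show x * u * x⁻¹ = u * (u ^ p) ^ c by rw [hc, mul_inv_cancel_left],
        ← zpow_natCast u p, ← zpow_mul, ← zpow_one_add, ← zpow_natCast, ← zpow_mul] at h2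
      have h3 : u ^ ((p : ℤ) * ((p : ℤ) * c)) = 1 := by
        rw [show (p : ℤ) * ((p : ℤ) * c) = (1 + (p : ℤ) * c) * (p : ℤ) - (p : ℤ) by ring, zpow_sub, h2,
          mul_inv_cancel]
      have := orderOf_dvd_iff_zpow_eq_one.2 h3
      rw [hou] at this
      exact_mod_cast this
    by_cases hk1 : k = 1
    · -- `p` odd and `Q` elementary
      have hp2 : p ≠ 2 := fun h => hfin ⟨h, hk1⟩
      subst hk1
      rw [pow_one] at hoe hexp hcard
      set E := u ^ p with hE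
      have hEQ : E ∈ Q := hup
      have hEord : orderOf E = p := by rw [houp, pow_one]
      let EQ : Q := ⟨E, hEQ⟩
      have hEidx : (Subgroup.zpowers EQ).index = p := by
        have h := (Subgroup.zpowers EQ).card_mul_index
        rw [Nat.card_zpowers, ← Subgroup.orderOf_coe, show orderOf (EQ : Ω) = p from hEord, hcard] at h
        exact Nat.eq_of_mul_eq_mul_left hp.out.pos h
      have hEc : IsCoatom (Subgroup.zpowers EQ) := CfsgLib.PGroup.isCoatom_of_index_eq hEidx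
      set U := conjAut (P := Q) hu.2
      have hUA : U ∈ F.autGroup Q :=
        autInducedBy_le_autGroup F hQS (conjAut_mem_autInducedBy hu.2 hu.1)
      have hUE : U EQ = EQ := Subtype.ext (by
        rw [conjAut_apply]
        show u * u ^ p * u⁻¹ = u ^ p
        rw [← pow_succ', pow_succ, mul_inv_cancel_right])
      have hUx : ∀ x : Q, ∃ m : ℤ, U x = x * EQ ^ m := by
        intro x
        obtain ⟨m, hm⟩ := Subgroup.mem_zpowers_iff.1 (hcover u hu.1 x x.2 hu.2)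
        obtain ⟨i, hi⟩ : e ∈ Subgroup.zpowers E := huper ▸ Subgroup.mem_zpowers e
        refine ⟨i * m, Subtype.ext ?_⟩
        rw [conjAut_apply, Subgroup.coe_mul, SubgroupClass.coe_zpow]
        show u * x * u⁻¹ = x * E ^ (i * m)
        rw [zpow_mul, show E ^ i = e from hi, hm, hcomm _ x.2 _ (mul_mem ((Subgroup.mem_normalizer_iff.1 hu.2 x).1 x.2) (inv_mem x.2)),
          inv_mul_cancel_right]
      obtain ⟨α, hα, x0, hx0, hαx0⟩ := hA _ hEc
      have hαE : α EQ ∉ Subgroup.zpowers EQ := by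
        intro h
        obtain ⟨i, rfl⟩ := Subgroup.mem_zpowers_iff.1 hx0
        exact hαx0 (map_zpow α EQ i ▸ zpow_mem h i)
      set f := α EQ with hf
      have hgen : ∀ x : Q, x ∈ Subgroup.zpowers EQ ⊔ Subgroup.zpowers f := by
        intro x
        rw [hEc.2 _ (lt_of_le_of_ne le_sup_left fun h => hαE (h ▸ Subgroup.mem_sup_right (Subgroup.mem_zpowers f)))]
        trivial
      have hext : ∀ σ τ : MulAut Q, σ EQ = τ EQ → σ f = τ f → σ = τ := by
        intro σ τ h1 h2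
        ext x
        have : x ∈ MonoidHom.eqLocus σ.toMonoidHom τ.toMonoidHom :=
          (sup_le (Subgroup.zpowers_le.2 h1) (Subgroup.zpowers_le.2 h2)) (hgen x)
        exact congrArg Subtype.val this
      obtain ⟨c, hc⟩ := hUx f
      set V := α * U * α⁻¹ with hV
      have hVf : V f = f := by simp [hV, hf, MulAut.mul_apply, hUE]
      obtain ⟨m, hm⟩ : ∃ m : ℤ, V EQ = EQ * f ^ m := by
        obtain ⟨m, hm⟩ := hUx (α⁻¹ EQ)
        exact ⟨m, by rw [hV, MulAut.mul_apply, MulAut.mul_apply, hm, map_mul, map_zpow,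
          MulAut.apply_inv_self]⟩
      have hEQp : EQ ^ p = 1 := by
        apply Subtype.ext
        simpa [EQ, hEord] using pow_orderOf_eq_one E
      have hfp : f ^ p = 1 := by rw [hf, ← map_pow, hEQp, map_one]
      have hUne : U ≠ 1 := fun h1 => huQ (mem_of_conj_pow hS hQ hu fun x hx => ⟨1, one_mem _, by
        have := congrArg Subtype.val (DFunLike.congr_fun h1 (⟨x, hx⟩ : Q))
        rw [conjAut_apply, MulAut.one_apply] at this
        rw [this, one_pow, mul_one]⟩)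
      have hcne : ¬ (p : ℤ) ∣ c := fun ⟨d, hd⟩ => hUne (hext U 1 hUE (by
        rw [hc, hd, zpow_mul, zpow_natCast, hEQp, one_zpow, mul_one]; rfl))
      have hmne : ¬ (p : ℤ) ∣ m := fun ⟨d, hd⟩ => hUne (by
        have h1 : V = 1 := hext V 1 (by rw [hm, hd, zpow_mul, zpow_natCast, hfp, one_zpow, mul_one]; rfl) hVf
        rw [hV, mul_inv_eq_one, mul_eq_left] at h1
        exact h1)
      have hzmod : ∀ z : ℤ, ¬ (p : ℤ) ∣ z → ∀ w : ℤ, ∃ n : ℕ, (p : ℤ) ∣ z * n - w := by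
        intro z hz w
        have hz' : (z : ZMod p) ≠ 0 := fun h => hz ((ZMod.intCast_zmod_eq_zero_iff_dvd z p).1 h)
        refine ⟨((z : ZMod p)⁻¹ * w).val, (ZMod.intCast_zmod_eq_zero_iff_dvd _ p).1 ?_⟩
        push_cast
        rw [ZMod.natCast_zmod_val, mul_inv_cancel_left₀ hz', sub_self]
      have hpowI : ∀ (x : Q), x ^ p = 1 → ∀ z w : ℤ, (p : ℤ) ∣ z - w → x ^ z = x ^ w := by
        intro x hx z w ⟨d, hd⟩
        rw [show z = w + (p : ℤ) * d by omega, zpow_add, zpow_mul, zpow_natCast, hx, one_zpow, mul_one]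
      have hiter : ∀ (σ : MulAut Q) (x y : Q), σ y = y → ∀ (d : ℤ), σ x = x * y ^ d →
          ∀ n : ℕ, (σ ^ n) x = x * y ^ (d * n) ∧ (σ ^ n) y = y := by
        intro σ x y hy d hx n
        induction n with
        | zero => simp
        | succ n ih =>
          rw [pow_succ', MulAut.mul_apply, MulAut.mul_apply, ih.1, ih.2, map_mul, map_zpow, hx, hy,
            mul_assoc, ← zpow_add]
          refine ⟨?_, rfl⟩
          push_cast
          ring_nf
      obtain ⟨n1, hn1⟩ := hzmod c hcne 1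
      obtain ⟨n2, hn2⟩ := hzmod m hmne (-1)
      set U' := U ^ n1
      set V' := V ^ n2
      have hU'f : U' f = f * EQ := by
        rw [(hiter U f EQ hUE c hc n1).1, hpowI EQ hEQp _ 1 hn1, zpow_one]
      have hU'E : U' EQ = EQ := (hiter U f EQ hUE c hc n1).2
      have hV'E : V' EQ = EQ * f⁻¹ := by
        rw [(hiter V EQ f hVf m hm n2).1, hpowI f hfp _ (-1) hn2, zpow_neg_one]
      have hV'f : V' f = f := (hiter V EQ f hVf m hm n2).2
      have hfE : f * EQ = EQ * f := hab.is_comm.comm f EQ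
      set ω := U' * V' * U' with hω
      have hωE : ω EQ = f⁻¹ := by
        rw [hω, MulAut.mul_apply, MulAut.mul_apply, hU'E, hV'E, map_mul, map_inv, hU'f, hU'E,
          hfE, mul_inv_rev, ← mul_assoc, mul_comm' EQ f⁻¹, mul_inv_cancel_right]
      have hωf : ω f = EQ := by
        rw [hω, MulAut.mul_apply, MulAut.mul_apply, hU'f, map_mul, hV'f, hV'E, ← mul_assoc, hfE,
          mul_inv_cancel_right, hU'E]
      set T := ω * ω with hT
      have hTA : T ∈ F.autGroup Q :=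
        mul_mem (mul_mem (mul_mem (pow_mem hUA _) (pow_mem (mul_mem (mul_mem hα hUA) (inv_mem hα)) _))
          (pow_mem hUA _)) (mul_mem (mul_mem (pow_mem hUA _) (pow_mem (mul_mem (mul_mem hα hUA) (inv_mem hα)) _))
          (pow_mem hUA _))
      let inv : Q →* Q :=
        { toFun := fun x => x⁻¹
          map_one' := inv_one
          map_mul' := fun x y => by rw [mul_inv_rev]; exact hab.is_comm.comm _ _ }
      have hTinv : ∀ x : Q, T x = x⁻¹ := fun x => by
        have h1 : EQ ∈ MonoidHom.eqLocus T.toMonoidHom inv := by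
          show T EQ = EQ⁻¹
          rw [hT, MulAut.mul_apply, hωE, map_inv, hωf]
        have h2 : f ∈ MonoidHom.eqLocus T.toMonoidHom inv := by
          show T f = f⁻¹
          rw [hT, MulAut.mul_apply, hωf, hωE]
        exact (sup_le (Subgroup.zpowers_le.2 h1) (Subgroup.zpowers_le.2 h2)) (hgen x)
      -- extend inversion to `⟨Q, u⟩`
      set φ := Q.subtype.comp T.toMonoidHom with hφ
      have hφmem : φ ∈ F.Hom Q := (mem_autGroup_iff F hQS).1 hTA
      have huext : u ∈ Cfsg.FusionSystem.extender S Q φ := by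
        refine Subgroup.subset_closure ⟨hu.1, hu.2, u, hu.1, fun x hx => ?_⟩
        show ((T ⟨u * x * u⁻¹, hx⟩ : Q) : Ω) = u * ((T x : Q) : Ω) * u⁻¹
        rw [hTinv, hTinv, Subgroup.coe_inv, Subgroup.coe_inv]
        group
      obtain ⟨ψ, hψ, hψe⟩ := (fullyNormalized_props hS hF hQ.fullyNormalized).2.2 Q φ hφmem
        (range_subtype_comp T)
      have hQext : ∀ x ∈ Q, x ∈ Cfsg.FusionSystem.extender S Q φ := by
        intro x hx
        refine Subgroup.subset_closure ⟨hQS hx, Subgroup.le_normalizer hx, ((T ⟨x, hx⟩ : Q) : Ω),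
          hQS (T ⟨x, hx⟩).2, fun y hy => ?_⟩
        show ((T ⟨x * y * x⁻¹, hy⟩ : Q) : Ω) = _ * ((T y : Q) : Ω) * _
        rw [show (⟨x * y * x⁻¹, hy⟩ : Q) = ⟨x, hx⟩ * y * (⟨x, hx⟩ : Q)⁻¹ from rfl, map_mul, map_mul, map_inv]
        rfl
      set w := ψ ⟨u, huext⟩ with hw
      have hwS : w ∈ S := hom_mem F hψ _
      have hpow : w ^ p = E⁻¹ := by
        rw [hw, ← map_pow]
        have := hψe E hEQ (hQext E hEQ)
        rw [show (⟨u, huext⟩ : Cfsg.FusionSystem.extender S Q φ) ^ p = ⟨E, hQext E hEQ⟩ from Subtype.ext rfl,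
          this]
        show ((T ⟨E, hEQ⟩ : Q) : Ω) = E⁻¹
        rw [hTinv]
        rfl
      have hconjw : ∀ x ∈ Q, w * x * w⁻¹ = u * x * u⁻¹ := by
        intro x hx
        have hux : u * x⁻¹ * u⁻¹ ∈ Q := (Subgroup.mem_normalizer_iff.1 hu.2 _).1 (inv_mem hx)
        have h1 := hψe x⁻¹ (inv_mem hx) (hQext _ (inv_mem hx))
        have h2 := hψe _ hux (hQext _ hux)
        have e1 : (⟨u * x⁻¹ * u⁻¹, hQext _ hux⟩ : Cfsg.FusionSystem.extender S Q φ) =
            ⟨u, huext⟩ * ⟨x⁻¹, hQext _ (inv_mem hx)⟩ * (⟨u, huext⟩ : Cfsg.FusionSystem.extender S Q φ)⁻¹ := rfl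
        rw [e1, map_mul, map_mul, map_inv, ← hw, h1] at h2
        have h3 : w * ((T ⟨x⁻¹, inv_mem hx⟩ : Q) : Ω) * w⁻¹ = ((T ⟨u * x⁻¹ * u⁻¹, hux⟩ : Q) : Ω) := h2
        rw [hTinv, hTinv, Subgroup.coe_inv, Subgroup.coe_inv, inv_inv] at h3
        rw [h3]
        group
      have hq : u⁻¹ * w ∈ Q := hQ.centric.2 Q (isConj_refl F hQS) ⟨mul_mem (S.inv_mem hu.1) hwS,
        Subgroup.mem_centralizer_iff.2 fun x hx => by
          have := hconjw x hx
          calc x * (u⁻¹ * w) = u⁻¹ * (u * x * u⁻¹) * w := by group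
            _ = u⁻¹ * (w * x * w⁻¹) * w := by rw [this]
            _ = u⁻¹ * w * x := by group⟩
      set q := u⁻¹ * w with hqdef
      have hcm : ⁅u, q⁆ ∈ Subgroup.zpowers E := by
        rw [huper]
        exact hcover u hu.1 q hq hu.2
      obtain ⟨d, hd⟩ := Subgroup.mem_zpowers_iff.1 hcm
      have hc1 : Commute ⁅u, q⁆ u := by
        rw [← hd]; exact ((Commute.refl u).pow_left p).zpow_left d
      have hc2 : Commute ⁅u, q⁆ q := hcomm _ (hd ▸ zpow_mem hEQ d) _ hq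
      have hc3 : ⁅u, q⁆ ^ p = 1 := by
        rw [← hd, ← zpow_natCast, ← zpow_mul, mul_comm, zpow_mul, zpow_natCast,
          show E ^ p = 1 by simpa [hEord] using pow_orderOf_eq_one E, one_zpow]
      have h4 := CfsgLib.PGroup.mul_pow_of_odd hc1 hc2 (hp.out.odd_of_ne_two hp2) hc3
      rw [hqdef, mul_inv_cancel_left, hpow, ← hqdef, hexp q hq, mul_one] at h4
      have h5 : E ^ 2 = 1 := by rw [pow_two]; nth_rewrite 1 [hE, ← h4]; rw [inv_mul_cancel]
      have h6 := orderOf_dvd_of_pow_eq_one h5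
      rw [hEord] at h6
      exact hp2 ((Nat.prime_dvd_prime_iff_eq hp.out Nat.prime_two).1 h6)
    · apply huQ
      refine mem_of_conj_pow hS hQ hu fun x hx => ?_
      obtain ⟨c, hc, hdvd⟩ := hconj x hx
      obtain ⟨c', rfl⟩ : (p : ℤ) ∣ c := by
        obtain ⟨k', hk'⟩ := Nat.exists_eq_add_of_le (show 2 ≤ k by omega)
        rw [hk', show 2 + k' + 1 = k' + 1 + 1 + 1 by omega, pow_succ', pow_succ'] at hdvd
        have hp0 : (p : ℤ) ≠ 0 := by exact_mod_cast hp.out.ne_zero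
        exact (dvd_pow_self _ k'.succ_ne_zero).trans
          ((mul_dvd_mul_iff_left hp0).1 ((mul_dvd_mul_iff_left hp0).1 hdvd))
      set z := (u ^ p) ^ c' with hz
      refine ⟨z⁻¹, inv_mem (zpow_mem hup _), ?_⟩
      have hzz : (u ^ p) ^ ((p : ℤ) * c') = z ^ p := by
        rw [hz, ← zpow_natCast _ p, ← zpow_natCast _ p, ← zpow_mul, ← zpow_mul, ← zpow_mul]
        ring_nf
      rw [hzz] at hc
      have hux : u⁻¹ * x * u = z ^ p * x := by
        calc u⁻¹ * x * u = u⁻¹ * (x * u * x⁻¹) * x := by group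
          _ = z ^ p * x := by rw [hc, inv_mul_cancel_left]
      have hzu : u * z ^ p * u⁻¹ = z ^ p := by
        have : Commute u (z ^ p) := (((Commute.refl u).pow_right p).zpow_right c').pow_right p
        rw [this.eq, mul_inv_cancel_right]
      calc u * x * u⁻¹ = u * ((z ^ p)⁻¹ * (u⁻¹ * x * u)) * u⁻¹ := by rw [hux, inv_mul_cancel_left]
        _ = (u * z ^ p * u⁻¹)⁻¹ * x := by group
        _ = x * z⁻¹ ^ p := by
          rw [hzu, ← inv_pow]
          exact hcomm _ (pow_mem (inv_mem (zpow_mem hup _)) _) _ hx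
  · push Not at hcase
    apply hu0Q
    let ρ := QuotientGroup.mk' (N.subgroupOf S)
    set U0 := ρ ⟨u0, hu0.1⟩ with hU0
    have hQmul : ∀ q ∈ Q, ∀ m : ℕ, ∃ q' ∈ Q, (q * u0) ^ m = q' * u0 ^ m := by
      intro q hq m
      induction m with
      | zero => exact ⟨1, one_mem _, by simp⟩
      | succ m ih =>
        obtain ⟨q', hq', e'⟩ := ih
        refine ⟨q' * (u0 ^ m * q * (u0 ^ m)⁻¹), mul_mem hq'
          ((Subgroup.mem_normalizer_iff.1 (pow_mem hu0.2 m) q).1 hq), ?_⟩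
        rw [pow_succ, e', pow_succ]
        group
    have hU0not : ∀ j : ℤ, π f0 ^ j ≠ U0 := by
      intro j hj
      set q : Q := (f0 ^ j)⁻¹
      have hn : (q : Ω) * u0 ∈ N := by
        have h1 : ρ (Subgroup.inclusion hQS q * ⟨u0, hu0.1⟩) = 1 := by
          rw [map_mul, ← hU0, ← hj]
          show π q * _ = 1
          rw [map_inv, map_zpow, inv_mul_cancel]
        exact ((QuotientGroup.eq_one_iff _).1 h1 :)
      obtain ⟨q', hq', e'⟩ := hQmul q q.2 p
      exact hcase _ (mul_mem (show (q : Ω) ∈ normalizerIn S Q from ⟨hQS q.2, Subgroup.le_normalizer q.2⟩) hu0)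
        hn (fun h => hu0Q (by simpa using mul_mem (inv_mem q.2) h)) (e' ▸ mul_mem hq' hu0p)
    obtain ⟨i0, c0, hdec0⟩ := hdec _ hu0p
    have hU0p : U0 ^ p = π f0 ^ c0 := by
      rw [hU0, ← map_pow]
      have e1 : (⟨u0, hu0.1⟩ : S) ^ p = Subgroup.inclusion hQS ((⟨e, heQ⟩ : Q) ^ i0 * f0 ^ c0) :=
        Subtype.ext (by simpa using hdec0)
      rw [e1]
      show π _ = _
      rw [map_mul, map_zpow, map_zpow, (hπ ⟨e, heQ⟩).2 heN, one_zpow, one_mul]
    have hc0 : ¬ (p : ℤ) ∣ c0 := by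
      rintro ⟨d, rfl⟩
      letI := hQcyc.commGroup
      set W := U0 * (π f0 ^ d)⁻¹
      have hWp : W ^ p = 1 := by
        rw [mul_pow, hU0p, inv_pow, ← zpow_natCast (π f0 ^ d), ← zpow_mul, mul_comm d, mul_inv_cancel]
      set G0 := π f0 ^ p ^ (k - 1)
      have hG0p : G0 ^ p = 1 := by
        rw [← pow_mul, ← pow_succ, Nat.sub_add_cancel hk, ← hof, pow_orderOf_eq_one]
      have hG0 : orderOf G0 = p := by
        refine orderOf_eq_prime hG0p fun h1 => ?_
        have h2 := orderOf_dvd_of_pow_eq_one h1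
        rw [hof] at h2
        have := (Nat.pow_dvd_pow_iff_le_right hp.out.one_lt).1 h2
        omega
      have heq := Subgroup.eq_of_le_of_card_ge
        (Subgroup.zpowers_le.2 hG0p : Subgroup.zpowers G0 ≤ (powMonoidHom p : (S ⧸ N.subgroupOf S) →* _).ker) (by
          rw [Nat.card_zpowers, hG0, IsCyclic.card_powMonoidHom_ker]
          exact Nat.le_of_dvd hp.out.pos (Nat.gcd_dvd_right _ _))
      obtain ⟨i, hi⟩ : W ∈ Subgroup.zpowers G0 := heq ▸ hWp
      apply hU0not (((p ^ (k - 1) : ℕ) : ℤ) * i + d)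
      rw [zpow_add, zpow_mul, zpow_natCast, show G0 ^ i = W from hi, inv_mul_cancel_right]
    obtain ⟨r, hr⟩ : ∃ r : ℤ, u0 * e * u0⁻¹ = e ^ r := by
      obtain ⟨m, hm⟩ := Subgroup.mem_zpowers_iff.1 (hcover u0 hu0.1 e heQ hu0.2)
      exact ⟨m + 1, by rw [zpow_add, zpow_one, hm, inv_mul_cancel_right]⟩
    have hrp : (p : ℤ) ∣ r - 1 := by
      have hit : ∀ n : ℕ, u0 ^ n * e * (u0 ^ n)⁻¹ = e ^ (r ^ n) := by
        intro n
        induction n with
        | zero => simp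
        | succ n ih =>
          rw [pow_succ', mul_inv_rev, show u0 * u0 ^ n * e * ((u0 ^ n)⁻¹ * u0⁻¹) =
              u0 * (u0 ^ n * e * (u0 ^ n)⁻¹) * u0⁻¹ by group, ih, ← conj_zpow, hr, ← zpow_mul,
            pow_succ']
      have h1 := hit p
      rw [hcomm _ hu0p _ heQ, mul_inv_cancel_right] at h1
      have h2 : e ^ (r ^ p - 1) = 1 := by rw [zpow_sub, zpow_one, ← h1, mul_inv_cancel]
      have h3 := orderOf_dvd_iff_zpow_eq_one.2 h2
      rw [hoe] at h3
      have h4 : (p : ℤ) ∣ r ^ p - 1 := (by exact_mod_cast dvd_pow_self p hk.ne' : (p : ℤ) ∣ ((p ^ k : ℕ) : ℤ)).trans h3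
      rw [← ZMod.intCast_zmod_eq_zero_iff_dvd] at h4 ⊢
      push_cast at h4 ⊢
      rwa [ZMod.pow_card] at h4
    obtain ⟨c, hc⟩ : ∃ c : ℤ, u0 * f0 * u0⁻¹ = f0 * e ^ c := by
      obtain ⟨m, hm⟩ := Subgroup.mem_zpowers_iff.1 (hcover u0 hu0.1 f0 f0.2 hu0.2)
      refine ⟨m, ?_⟩
      rw [hcomm _ f0.2 _ (zpow_mem heQ m), hm, inv_mul_cancel_right]
    have hpc : (p : ℤ) ∣ c := by
      have h1 : u0 * u0 ^ p * u0⁻¹ = u0 ^ p := by rw [← pow_succ', pow_succ, mul_inv_cancel_right]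
      rw [hdec0, ← conj_mul, ← conj_zpow, ← conj_zpow, hr, hc,
        Commute.mul_zpow (show Commute (f0 : Ω) (e ^ c) from hcomm _ f0.2 _ (zpow_mem heQ c)), ← zpow_mul, ← zpow_mul,
        hcomm ((f0 : Ω) ^ c0) (zpow_mem f0.2 c0) (e ^ (c * c0)) (zpow_mem heQ _), ← mul_assoc,
        ← zpow_add] at h1
      have h2 : e ^ (r * i0 + c * c0 - i0) = 1 := by
        rw [zpow_sub, mul_right_cancel h1, mul_inv_cancel]
      have h3 := orderOf_dvd_iff_zpow_eq_one.2 h2
      rw [hoe] at h3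
      have h4 : (p : ℤ) ∣ c * c0 + (r - 1) * i0 := by
        rw [show c * c0 + (r - 1) * i0 = r * i0 + c * c0 - i0 by ring]
        exact (by exact_mod_cast dvd_pow_self p hk.ne' : (p : ℤ) ∣ ((p ^ k : ℕ) : ℤ)).trans h3
      have h5 : (p : ℤ) ∣ c * c0 := (dvd_add_left (hrp.mul_right i0)).1 h4
      exact (((Nat.prime_iff_prime_int.1 hp.out).dvd_mul).1 h5).resolve_right hc0
    refine mem_of_conj_pow hS hQ hu0 fun x hx => ?_
    obtain ⟨i, j, rfl⟩ := hdec x hx
    obtain ⟨r', hr'⟩ := hrp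
    obtain ⟨c', rfl⟩ := hpc
    refine ⟨e ^ (r' * i + c' * j), zpow_mem heQ _, ?_⟩
    have hfe : ∀ m n : ℤ, (f0 : Ω) ^ m * e ^ n = e ^ n * (f0 : Ω) ^ m := fun m n =>
      hcomm _ (zpow_mem f0.2 m) _ (zpow_mem heQ n)
    rw [← conj_mul, ← conj_zpow, ← conj_zpow, hr, hc,
      Commute.mul_zpow (show Commute (f0 : Ω) (e ^ ((p : ℤ) * c')) from hcomm _ f0.2 _ (zpow_mem heQ _))]
    simp only [← zpow_natCast _ p, ← zpow_mul]
    rw [hfe, ← mul_assoc, mul_assoc (e ^ i), hfe, ← mul_assoc, ← zpow_add, ← zpow_add]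
    congr 2
    linear_combination i * hr'


end Radical

end CfsgLib.Fus.Supersoluble
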