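import Mathlib
import Cfsg.Agent.Eq.Def_CaseTheorems
import Cfsg.Agent.Fus.Supersoluble.MetaEssential
import Cfsg.Agent.FusionTwo.Common

/-!
A metacyclic `2`-group with a self-centralizing subgroup of abelianization `C₂ × C₂` all of whose maximal
subgroups are moved is dihedral, semidihedral or generalized quaternion.
-/

set_option autoImplicit false

namespace CfsgLib.Fus.Supersoluble

open Cfsg CfsgLib.Fus
open scoped commutatorElement

variable {Ω : Type*} [Group Ω] {S : Subgroup Ω}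

/-- Dihedral, semidihedral or generalized quaternion. -/
def IsExceptional (S : Subgroup Ω) : Prop :=
  (∃ n : ℕ, 2 ≤ n ∧ Nonempty (↥S ≃* DihedralGroup n)) ∨ Cfsg.IsQuasiDihedral ↥S ∨
    (∃ n : ℕ, 2 ≤ n ∧ Nonempty (↥S ≃* QuaternionGroup n))

theorem four_shape {Q : Subgroup Ω} [Finite Q] (hQ : IsPGroup 2 Q) (M : Subgroup Q) [M.Normal]
    (hCM : commutator Q ≤ M) (hMc : IsCyclic M) {A : Subgroup (MulAut Q)} (hA : MovesMaximals A)
    (h4 : (commutator Q).index = 4)
    (hM2 : ∀ x y : Q, x ∉ M → y ∉ M → x ^ 2 ∈ M → y ^ 2 ∈ M → x * y ∈ M) :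
    ∃ i j : Q, Subgroup.zpowers i = M ∧ j ∉ M ∧ (∀ x : Q, x ∈ M ∨ x * j⁻¹ ∈ M) ∧
      j * i * j⁻¹ = i⁻¹ ∧ ((orderOf i = 2 ∧ j * j = 1) ∨ (orderOf i = 4 ∧ j * j = i * i)) := by
  classical
  haveI : Nontrivial Q := by
    by_contra h
    rw [not_nontrivial_iff_subsingleton] at h
    rw [Subgroup.index_eq_card, Nat.card_of_subsingleton (1 : Q ⧸ commutator Q)] at h4
    omega
  have hΦ : commutator Q = frattini Q := by
    have hle := CfsgLib.PGroup.commutator_le_frattini hQ
    refine Subgroup.eq_of_le_of_card_ge hle ?_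
    have hd : (frattini Q).index ∣ 4 := h4 ▸ Subgroup.index_dvd_of_le hle
    have h1 : (frattini Q).index ≠ 1 := fun h => CfsgLib.PGroup.frattini_ne_top (Subgroup.index_eq_one.1 h)
    have h2 : (frattini Q).index ≠ 2 := not_invariant hA (fun α x hx =>
      (Subgroup.characteristic_iff_map_le.1 (inferInstance : (frattini Q).Characteristic) α) ⟨x, hx, rfl⟩)
    have h3 := Nat.le_of_dvd (by norm_num) hd
    have h5 : (frattini Q).index = 4 := by
      have h0 : (frattini Q).index ≠ 0 := Subgroup.index_ne_zero_of_finite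
      interval_cases (frattini Q).index <;> simp_all (config := { decide := true })
    have e1 := (frattini Q).card_mul_index
    have e2 := (commutator Q).card_mul_index
    rw [h5] at e1
    rw [h4] at e2
    omega
  have hsq : ∀ x : Q, x ^ 2 ∈ commutator Q := fun x => hΦ ▸ CfsgLib.PGroup.pow_prime_mem_frattini hQ x
  -- `M` is proper
  have hMtop : M ≠ ⊤ := by
    intro h
    haveI : IsCyclic Q := by
      rw [h] at hMc
      exact isCyclic_of_surjective (⊤ : Subgroup Q).subtype fun x => ⟨⟨x, trivial⟩, rfl⟩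
    letI := (inferInstance : IsCyclic Q).commGroup
    rw [show commutator Q = ⊥ from commutator_eq_bot_iff Q |>.2 ⟨⟨mul_comm⟩⟩, Subgroup.index_bot] at h4
    obtain ⟨g, hg⟩ := IsCyclic.exists_generator (α := Q)
    have hg2 : g ^ 2 ∈ (⊥ : Subgroup Q) := by
      have := hsq g
      rwa [show commutator Q = ⊥ from commutator_eq_bot_iff Q |>.2 ⟨⟨mul_comm⟩⟩] at this
    have := orderOf_le_of_pow_eq_one two_pos (Subgroup.mem_bot.1 hg2)
    rw [orderOf_eq_card_of_forall_mem_zpowers hg] at this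
    omega
  obtain ⟨j0, hj0⟩ : ∃ j0, j0 ∉ M := by
    by_contra h
    push Not at h
    exact hMtop (eq_top_iff.2 fun x _ => h x)
  have hidx : M.index = 2 := by
    rw [Subgroup.index_eq_two_iff]
    refine ⟨j0, fun x => ?_⟩
    by_cases hx : x ∈ M
    · exact Or.inr ⟨hx, fun h => hj0 (by simpa using mul_mem (inv_mem hx) h)⟩
    · exact Or.inl ⟨hM2 x j0 hx hj0 (hCM (hsq x)) (hCM (hsq j0)), hx⟩
  obtain ⟨i, hi⟩ := M.isCyclic_iff_exists_zpowers_eq_top.1 hMc
  obtain ⟨α, -, x0, hx0, hαx0⟩ := hA M (CfsgLib.PGroup.isCoatom_of_index_eq hidx)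
  have hiM : i ∈ M := hi ▸ Subgroup.mem_zpowers i
  set j := α i with hj
  have hjM : j ∉ M := by
    intro h
    obtain ⟨n, rfl⟩ : x0 ∈ Subgroup.zpowers i := hi.symm ▸ hx0
    exact hαx0 (map_zpow α i n ▸ zpow_mem h n)
  have hcov : ∀ x : Q, x ∈ M ∨ x * j⁻¹ ∈ M := fun x => by
    by_cases hx : x ∈ M
    · exact Or.inl hx
    · exact Or.inr (by rw [Subgroup.mul_mem_iff_of_index_two hidx]; exact iff_of_false hx (by simpa using hjM))
  have hCj : commutator Q ≤ Subgroup.zpowers j := fun c hc => by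
    have h := commutator_apply_mem α⁻¹ hc
    obtain ⟨n, hn⟩ := Subgroup.mem_zpowers_iff.1 (hi.symm ▸ hCM h : α⁻¹ c ∈ Subgroup.zpowers i)
    exact ⟨n, by
      show j ^ n = c
      rw [hj, ← map_zpow, hn, MulAut.apply_inv_self]⟩
  have hcen : ∀ c ∈ commutator Q, ∀ x : Q, c * x = x * c := by
    intro c hc x
    obtain ⟨n, rfl⟩ := Subgroup.mem_zpowers_iff.1 (hi.symm ▸ hCM hc : c ∈ Subgroup.zpowers i)
    have h1 : ∀ y ∈ M, Commute (i ^ n) y := fun y hy => by
      obtain ⟨m, rfl⟩ := Subgroup.mem_zpowers_iff.1 (hi.symm ▸ hy : y ∈ Subgroup.zpowers i)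
      exact ((Commute.refl i).zpow_right m).zpow_left n
    obtain ⟨m', hm'⟩ := Subgroup.mem_zpowers_iff.1 (hCj hc)
    have h2 : Commute (i ^ n) j := hm' ▸ (Commute.refl j).zpow_left m'
    rcases hcov x with h | h
    · exact h1 x h
    · have := (h1 _ h).mul_right h2
      rwa [inv_mul_cancel_right] at this
  have hinv : ∀ c ∈ commutator Q, c * c = 1 := by
    intro c hc
    have hclos : c ∈ Subgroup.closure (commutatorSet Q) := by rwa [← commutator_eq_closure]
    induction hclos using Subgroup.closure_induction with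
    | mem c h =>
      obtain ⟨x, y, rfl⟩ := mem_commutatorSet_iff.1 h
      have h1 := CfsgLib.PGroup.commutatorElement_pow_left (a := x) (b := y) (hcen _ hc x) 2
      rw [commutatorElement_eq_one_iff_mul_comm.2 (hcen _ (hsq x) y)] at h1
      rw [← pow_two]
      exact h1.symm
    | one => simp
    | mul u v hu hv ihu ihv =>
      have hu' : u ∈ commutator Q := by rw [commutator_eq_closure]; exact hu
      have hv' : v ∈ commutator Q := by rw [commutator_eq_closure]; exact hv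
      calc u * v * (u * v) = u * (v * u) * v := by group
        _ = u * (u * v) * v := by rw [hcen v hv' u]
        _ = (u * u) * (v * v) := by group
        _ = 1 := by rw [ihu hu', ihv hv', one_mul]
    | inv u hu ihu =>
      have hu' : u ∈ commutator Q := by rw [commutator_eq_closure]; exact hu
      rw [← mul_inv_rev, ihu hu', inv_one]
  have hMcard : Nat.card M = orderOf i := by rw [← hi, Nat.card_zpowers]
  have hcardQ : Nat.card Q = orderOf i * 2 := by rw [← hMcard, ← hidx, Subgroup.card_mul_index]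
  have hcardC : Nat.card (commutator Q) * 4 = orderOf i * 2 := by
    rw [← hcardQ, ← h4, Subgroup.card_mul_index]
  have hCle : Nat.card (commutator Q) ≤ 2 := by
    haveI : IsCyclic (commutator Q) :=
      isCyclic_of_injective (Subgroup.inclusion hCM) (Subgroup.inclusion_injective hCM)
    obtain ⟨g, hg⟩ := IsCyclic.exists_generator (α := commutator Q)
    rw [← orderOf_eq_card_of_forall_mem_zpowers hg]
    exact orderOf_le_of_pow_eq_one two_pos (Subtype.ext (by simpa [pow_two] using hinv g g.2))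
  have hjord : orderOf j = orderOf i := MulEquiv.orderOf_eq α i
  refine ⟨i, j, hi, hjM, hcov, ?_⟩
  have hpos := Nat.card_pos (α := commutator Q)
  rcases (show orderOf i = 2 ∨ orderOf i = 4 by omega) with h2 | h4'
  · have hC1 : commutator Q = ⊥ := Subgroup.eq_bot_of_card_eq _ (by omega)
    have hii : i * i = 1 := by rw [← pow_two, ← h2, pow_orderOf_eq_one]
    have hjj : j * j = 1 := by rw [← pow_two, ← h2, ← hjord, pow_orderOf_eq_one]
    have hcomm : j * i = i * j := by
      have : ⁅j, i⁆ ∈ commutator Q :=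
        Subgroup.commutator_mem_commutator (Subgroup.mem_top _) (Subgroup.mem_top _)
      rw [hC1, Subgroup.mem_bot] at this
      exact commutatorElement_eq_one_iff_mul_comm.1 this
    refine ⟨?_, Or.inl ⟨h2, hjj⟩⟩
    rw [hcomm, mul_inv_cancel_right, eq_inv_iff_mul_eq_one]
    exact hii
  · have hC2 : Nat.card (commutator Q) = 2 := by omega
    have hi2 : i ^ 2 ∈ commutator Q := hsq i
    have hj2 : j ^ 2 ∈ commutator Q := hsq j
    have hi2ne : i ^ 2 ≠ 1 := fun h => by
      have := orderOf_le_of_pow_eq_one two_pos h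
      omega
    have hj2ne : j ^ 2 ≠ 1 := fun h => by
      have := orderOf_le_of_pow_eq_one two_pos h
      omega
    obtain ⟨y, z, hyz, huniv⟩ := Nat.card_eq_two_iff.1 hC2
    have hall : ∀ c ∈ commutator Q, c ≠ 1 → c = i ^ 2 := by
      intro c hc hc1
      have h1 : (⟨c, hc⟩ : commutator Q) ∈ ({y, z} : Set _) := huniv ▸ Set.mem_univ _
      have h2' : (⟨i ^ 2, hi2⟩ : commutator Q) ∈ ({y, z} : Set _) := huniv ▸ Set.mem_univ _
      have h3 : (1 : commutator Q) ∈ ({y, z} : Set _) := huniv ▸ Set.mem_univ _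
      simp only [Set.mem_insert_iff, Set.mem_singleton_iff] at h1 h2' h3
      rcases h1 with h1 | h1 <;> rcases h2' with h2' | h2' <;>
        first
        | exact congrArg Subtype.val (h1.trans h2'.symm)
        | (rcases h3 with h3 | h3 <;>
            first
            | exact absurd (congrArg Subtype.val (h1.trans h3.symm)) hc1
            | exact absurd (congrArg Subtype.val (h2'.trans h3.symm)) hi2ne)
    refine ⟨?_, Or.inr ⟨h4', by rw [← pow_two, ← pow_two]; exact hall _ hj2 hj2ne⟩⟩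
    have hne : ⁅j, i⁆ ≠ 1 := by
      intro h
      have hji : j * i = i * j := commutatorElement_eq_one_iff_mul_comm.1 h
      have hgen : ∀ x : Q, Commute x i ∧ Commute x j := by
        intro x
        rcases hcov x with hx | hx
        · obtain ⟨m, rfl⟩ := Subgroup.mem_zpowers_iff.1 (hi.symm ▸ hx : x ∈ Subgroup.zpowers i)
          exact ⟨(Commute.refl i).zpow_left m, (show Commute i j from hji.symm).zpow_left m⟩
        · obtain ⟨m, hm⟩ := Subgroup.mem_zpowers_iff.1 (hi.symm ▸ hx : x * j⁻¹ ∈ Subgroup.zpowers i)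
          have : x = i ^ m * j := by rw [hm, inv_mul_cancel_right]
          rw [this]
          exact ⟨((Commute.refl i).zpow_left m).mul_left hji,
            ((show Commute i j from hji.symm).zpow_left m).mul_left (Commute.refl j)⟩
      have : commutator Q = ⊥ := commutator_eq_bot_iff Q |>.2 ⟨⟨fun x y => by
        rcases hcov y with hy | hy
        · obtain ⟨m, rfl⟩ := Subgroup.mem_zpowers_iff.1 (hi.symm ▸ hy : y ∈ Subgroup.zpowers i)
          exact ((hgen x).1.zpow_right m).eq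
        · obtain ⟨m, hm⟩ := Subgroup.mem_zpowers_iff.1 (hi.symm ▸ hy : y * j⁻¹ ∈ Subgroup.zpowers i)
          rw [show y = i ^ m * j by rw [hm, inv_mul_cancel_right]]
          exact (((hgen x).1.zpow_right m).mul_right (hgen x).2).eq⟩⟩
      rw [this, Subgroup.card_bot] at hC2
      omega
    have hji := hall _ (Subgroup.commutator_mem_commutator (Subgroup.mem_top j) (Subgroup.mem_top i)) hne
    rw [commutatorElement_def] at hji
    have h4i : i ^ 4 = 1 := by rw [← h4', pow_orderOf_eq_one]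
    rw [eq_inv_iff_mul_eq_one]
    calc j * i * j⁻¹ * i = (j * i * j⁻¹ * i⁻¹) * (i * i) := by group
      _ = i ^ 4 := by rw [hji, ← pow_two, ← pow_add]
      _ = 1 := h4i

theorem exceptional_of_four [Finite S] (hS : IsPGroup 2 S) (hm : Cfsg.IsMetacyclic S) {Q : Subgroup Ω}
    (hQS : Q ≤ S) (hcen : Cfsg.FusionSystem.centralizerIn S Q ≤ Q) {A : Subgroup (MulAut Q)}
    (hA : MovesMaximals A) (h4 : (commutator Q).index = 4) : IsExceptional S := by
  classical
  haveI : Finite Q := finite_of_le hQS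
  obtain ⟨a, b, D⟩ := exists_metaGens hm
  set N := Subgroup.zpowers a with hN
  have hNS : N ≤ S := D.zpowers_le
  haveI : Finite N := finite_of_le hNS
  haveI : (N.subgroupOf Q).Normal := ⟨fun n hn g => D.conj_zpow (hQS g.2) hn⟩
  have hMc : IsCyclic (N.subgroupOf Q) := isCyclic_of_injective
    ({ toFun := fun x => ⟨(x : Q), x.2⟩
       map_one' := rfl
       map_mul' := fun _ _ => rfl } : (N.subgroupOf Q) →* N)
    fun x y h => Subtype.ext (Subtype.ext (congrArg (fun z : N => (z : Ω)) h))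
  haveI hNn : (N.subgroupOf S).Normal := ⟨fun n hn g => D.conj_zpow g.2 hn⟩
  let ρ := QuotientGroup.mk' (N.subgroupOf S)
  haveI hQcyc : IsCyclic (S ⧸ N.subgroupOf S) := by
    refine ⟨⟨ρ ⟨b, D.b_mem⟩, fun q => ?_⟩⟩
    obtain ⟨w, rfl⟩ := QuotientGroup.mk'_surjective _ q
    obtain ⟨i, j, h⟩ := D.gen w w.2
    have e : w = (⟨a ^ i, zpow_mem D.a_mem i⟩ : S) * (⟨b, D.b_mem⟩ : S) ^ j :=
      Subtype.ext (by simpa using h)
    refine ⟨j, ?_⟩
    show (ρ ⟨b, D.b_mem⟩) ^ j = ρ w
    rw [e, map_mul, map_zpow, show ρ ⟨a ^ i, zpow_mem D.a_mem i⟩ = 1 from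
      (QuotientGroup.eq_one_iff _).2 ⟨i, rfl⟩, one_mul]
  have hρ : ∀ x : Q, ρ (Subgroup.inclusion hQS x) = 1 ↔ (x : Ω) ∈ N := fun x => QuotientGroup.eq_one_iff _
  have hM2 : ∀ x y : Q, x ∉ N.subgroupOf Q → y ∉ N.subgroupOf Q → x ^ 2 ∈ N.subgroupOf Q →
      y ^ 2 ∈ N.subgroupOf Q → x * y ∈ N.subgroupOf Q := by
    intro x y hx hy hx2 hy2
    letI := hQcyc.commGroup
    set X := ρ (Subgroup.inclusion hQS x)
    set Y := ρ (Subgroup.inclusion hQS y)
    have hX : X ≠ 1 := fun h => hx ((hρ x).1 h)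
    have hY : Y ≠ 1 := fun h => hy ((hρ y).1 h)
    have hX2 : X ^ 2 = 1 := by rw [← map_pow, ← map_pow]; exact (hρ _).2 hx2
    have hY2 : Y ^ 2 = 1 := by rw [← map_pow, ← map_pow]; exact (hρ _).2 hy2
    have heq := Subgroup.eq_of_le_of_card_ge
      (Subgroup.zpowers_le.2 hX2 : Subgroup.zpowers X ≤ (powMonoidHom 2 : (S ⧸ N.subgroupOf S) →* _).ker) (by
        rw [Nat.card_zpowers, orderOf_eq_prime hX2 hX, IsCyclic.card_powMonoidHom_ker]
        exact Nat.le_of_dvd two_pos (Nat.gcd_dvd_right _ _))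
    have hYX : Y ∈ Subgroup.zpowers X := heq ▸ hY2
    obtain ⟨n, hn⟩ := (mem_powers_iff_mem_zpowers.2 hYX)
    have hn' : X ^ n = Y := hn
    have hYe : Y = X := by
      rcases Nat.even_or_odd n with ⟨m, rfl⟩ | ⟨m, rfl⟩
      · exact absurd (by rw [← hn', ← two_mul, pow_mul, hX2, one_pow]) hY
      · rw [← hn', pow_succ, pow_mul, hX2, one_pow, one_mul]
    refine (hρ (x * y)).1 ?_
    rw [map_mul, map_mul]
    show X * Y = 1
    rw [hYe, ← pow_two, hX2]
  obtain ⟨i₀, j₀, hiM, hjM, hcov, hji, hshape⟩ := four_shape (hS.to_le hQS) (N.subgroupOf Q)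
    (fun c hc => by
      rw [commutator_eq_closure] at hc
      refine (Subgroup.closure_le _).2 ?_ hc
      rintro _ ⟨x, y, rfl⟩
      exact D.comm_mem (hQS x.2) (hQS y.2)) hMc hA h4 hM2
  set i : Ω := (i₀ : Ω) with hi
  set j : Ω := (j₀ : Ω) with hj
  have hiN : i ∈ N := (hiM ▸ Subgroup.mem_zpowers i₀ : i₀ ∈ N.subgroupOf Q)
  have hjN : j ∉ N := hjM
  have hjS : j ∈ S := hQS j₀.2
  have hji' : j * i * j⁻¹ = i⁻¹ := by simpa using congrArg Subtype.val hji
  have hshape' : (orderOf i = 2 ∧ j * j = 1) ∨ (orderOf i = 4 ∧ j * j = i * i) := by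
    rcases hshape with ⟨h1, h2⟩ | ⟨h1, h2⟩
    · exact Or.inl ⟨by rw [hi, Subgroup.orderOf_coe, h1], by simpa using congrArg Subtype.val h2⟩
    · exact Or.inr ⟨by rw [hi, Subgroup.orderOf_coe, h1], by simpa using congrArg Subtype.val h2⟩
  have hNcomm : ∀ x ∈ N, ∀ y ∈ N, x * y = y * x := by
    intro x hx y hy
    obtain ⟨m, rfl⟩ := Subgroup.mem_zpowers_iff.1 hx
    obtain ⟨n, rfl⟩ := Subgroup.mem_zpowers_iff.1 hy
    exact (((Commute.refl a).zpow_left m).zpow_right n).eq
  have hQgen : ∀ g : Ω, Commute g i → Commute g j → ∀ x ∈ Q, Commute g x := by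
    intro g hgi hgj x hx
    rcases hcov ⟨x, hx⟩ with h | h
    · rw [← hiM] at h
      obtain ⟨m, hm⟩ := Subgroup.mem_zpowers_iff.1 h
      have hx' : i ^ m = x := by simpa using congrArg Subtype.val hm
      exact hx' ▸ hgi.zpow_right m
    · rw [← hiM] at h
      obtain ⟨m, hm⟩ := Subgroup.mem_zpowers_iff.1 h
      have hx' : i ^ m = x * j⁻¹ := by simpa using congrArg Subtype.val hm
      have := (hgi.zpow_right m).mul_right hgj
      rwa [hx', inv_mul_cancel_right] at this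
  have hfix : ∀ n ∈ N, j * n * j⁻¹ = n → n * n = 1 := by
    intro n hn hjn
    have hnj : Commute n j := by
      show n * j = j * n
      calc n * j = (j * n * j⁻¹) * j := by rw [hjn]
        _ = j * n := by rw [inv_mul_cancel_right]
    have hnQ : n ∈ Q := hcen ⟨hNS hn, Subgroup.mem_centralizer_iff.2 fun x hx =>
      ((hQgen n (hNcomm n hn i hiN) hnj x hx).eq).symm⟩
    obtain ⟨m, hm⟩ := Subgroup.mem_zpowers_iff.1 (hiM.symm ▸ (show (⟨n, hnQ⟩ : Q) ∈ N.subgroupOf Q from hn) :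
      (⟨n, hnQ⟩ : Q) ∈ Subgroup.zpowers i₀)
    have hm' : i ^ m = n := by simpa using congrArg Subtype.val hm
    rw [← hm', ← conj_zpow, hji', inv_zpow] at hjn
    rw [← hm']
    nth_rewrite 1 [← hjn]
    rw [inv_mul_cancel]
  obtain ⟨s, hs⟩ : ∃ s, orderOf a = 2 ^ s := by
    obtain ⟨e, he⟩ := hS ⟨a, D.a_mem⟩
    obtain ⟨s, -, hs⟩ := (Nat.dvd_prime_pow Nat.prime_two).1
      (orderOf_dvd_of_pow_eq_one (show a ^ 2 ^ e = 1 by simpa using congrArg Subtype.val he))
    exact ⟨s, hs⟩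
  have hs1 : 1 ≤ s := by
    rw [Nat.one_le_iff_ne_zero]
    intro h
    rw [h, pow_zero, orderOf_eq_one_iff] at hs
    have : i = 1 := by
      have := hiN
      rwa [hN, hs, Subgroup.zpowers_one_eq_bot, Subgroup.mem_bot] at this
    rw [this, orderOf_one] at hshape'
    omega
  have hpow : ∀ m : ℤ, a ^ m = 1 ↔ (2 : ℤ) ^ s ∣ m := fun m => by
    rw [← orderOf_dvd_iff_zpow_eq_one, hs]; push_cast; rfl
  obtain ⟨r, hr⟩ := Subgroup.mem_zpowers_iff.1 (D.conj j hjS)
  have hjconj : ∀ m : ℤ, j * a ^ m * j⁻¹ = a ^ (r * m) := fun m => by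
    rw [← conj_zpow, ← hr, ← zpow_mul]
  have hjjN : j * j ∈ N := by
    rcases hshape' with ⟨-, h⟩ | ⟨-, h⟩
    · rw [h]; exact one_mem _
    · rw [h]; exact mul_mem hiN hiN
  -- every element lies in `N` or in `N j`
  have hSdec : ∀ g ∈ S, g ∈ N ∨ g * j⁻¹ ∈ N := by
    rcases eq_or_lt_of_le hs1 with hs' | hs'
    · -- `N` has order two
      have haa : a * a = 1 := by rw [← pow_two, show 2 = orderOf a by rw [hs, ← hs']; rfl, pow_orderOf_eq_one]
      have haz : ∀ g ∈ S, Commute g a := by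
        intro g hg
        obtain ⟨m, hm⟩ := Subgroup.mem_zpowers_iff.1 (D.conj g hg)
        rcases Int.even_or_odd m with ⟨t, rfl⟩ | ⟨t, rfl⟩
        · rw [← two_mul, zpow_mul, show a ^ (2 : ℤ) = 1 by rw [zpow_two, haa], one_zpow,
            eq_comm, conj_eq_one_iff] at hm
          rw [hm]; exact Commute.one_right g
        · rw [zpow_add, zpow_one, zpow_mul, show a ^ (2 : ℤ) = 1 by rw [zpow_two, haa], one_zpow, one_mul] at hm
          show g * a = a * g
          conv_rhs => rw [hm, inv_mul_cancel_right]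
      have hab : ∀ g ∈ S, Commute g b := by
        intro g hg
        obtain ⟨x, y, rfl⟩ := D.gen g hg
        exact (((haz b D.b_mem).symm).zpow_left x).mul_left ((Commute.refl b).zpow_left y)
      have hSQ : ∀ g ∈ S, g ∈ Q := fun g hg => hcen ⟨hg, Subgroup.mem_centralizer_iff.2 fun x hx => by
        obtain ⟨u, v, rfl⟩ := D.gen x (hQS hx)
        exact (((haz g hg).zpow_right u).mul_right ((hab g hg).zpow_right v)).eq.symm⟩
      intro g hg
      rcases hcov ⟨g, hSQ g hg⟩ with h | h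
      · exact Or.inl h
      · exact Or.inr h
    · have hr4 : ¬ (4 : ℤ) ∣ r - 1 := by
        intro h
        have hn := hfix (a ^ ((2 : ℤ) ^ (s - 2))) (zpow_mem (Subgroup.mem_zpowers a) _) (by
          rw [hjconj, eq_comm, ← mul_inv_eq_one, ← zpow_neg, ← zpow_add, hpow]
          obtain ⟨q, hq⟩ := h
          refine ⟨-q, ?_⟩
          rw [show (2 : ℤ) ^ s = 2 ^ (s - 2) * 4 by
            rw [show (4 : ℤ) = 2 ^ 2 by norm_num, ← pow_add, Nat.sub_add_cancel (show 2 ≤ s by omega)]]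
          linear_combination (-(2 : ℤ) ^ (s - 2)) * hq)
        rw [← zpow_add, hpow, ← two_mul, ← pow_succ'] at hn
        have := (pow_dvd_pow_iff (a := (2 : ℤ)) (by norm_num) (by
          rw [Int.isUnit_iff]; norm_num)).1 hn
        omega
      obtain ⟨x, y, hxy⟩ := D.gen j hjS
      have hy : Odd y := by
        rw [← Int.not_even_iff_odd]
        rintro ⟨t, ht⟩
        obtain ⟨σ, hσ⟩ := Subgroup.mem_zpowers_iff.1 (D.conj (b ^ t) (zpow_mem D.b_mem t))
        have hrσ : a ^ r = a ^ (σ * σ) := by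
          rw [hr, hxy, ht, zpow_add]
          calc a ^ x * (b ^ t * b ^ t) * a * (a ^ x * (b ^ t * b ^ t))⁻¹
              = a ^ x * (b ^ t * (b ^ t * a * (b ^ t)⁻¹) * (b ^ t)⁻¹) * (a ^ x)⁻¹ := by group
            _ = a ^ x * a ^ (σ * σ) * (a ^ x)⁻¹ := by rw [← hσ, ← conj_zpow, ← hσ, ← zpow_mul]
            _ = a ^ (σ * σ) := by group
        have hdvd : (2 : ℤ) ^ s ∣ r - σ * σ := by rw [← hpow, zpow_sub, hrσ, mul_inv_cancel]
        have hσodd : Odd σ := by
          rw [← Int.not_even_iff_odd]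
          rintro ⟨q, rfl⟩
          have h1 : (b ^ t * a * (b ^ t)⁻¹) ^ ((2 : ℤ) ^ (s - 1)) = 1 := by
            rw [← hσ, ← zpow_mul, hpow]
            refine ⟨q, ?_⟩
            rw [show (2 : ℤ) ^ s = 2 ^ (s - 1) * 2 by rw [← pow_succ, Nat.sub_add_cancel hs1]]
            ring
          rw [conj_zpow, conj_eq_one_iff, hpow] at h1
          have := (pow_dvd_pow_iff (a := (2 : ℤ)) (by norm_num) (by
            rw [Int.isUnit_iff]; norm_num)).1 h1
          omega
        apply hr4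
        obtain ⟨u, rfl⟩ := hσodd
        have h4s : (4 : ℤ) ∣ 2 ^ s := by
          rw [show (4 : ℤ) = 2 ^ 2 by norm_num]; exact pow_dvd_pow _ (by omega)
        have := h4s.trans hdvd
        have e : r - 1 = (r - (2 * u + 1) * (2 * u + 1)) + 4 * (u * u + u) := by ring
        rw [e]
        exact dvd_add this (dvd_mul_right _ _)
      have hby : b ^ y * j⁻¹ ∈ N := ⟨-x, by show a ^ (-x) = _; rw [hxy]; group⟩
      have hnormS : ∀ g ∈ S, ∀ n ∈ N, g * n * g⁻¹ ∈ N := fun g hg n hn => D.conj_zpow hg hn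
      have hb2 : b ^ (2 : ℤ) ∈ N := by
        obtain ⟨e, he⟩ := hS ⟨b, D.b_mem⟩
        have he' : b ^ ((2 : ℤ) ^ e) = 1 := by
          have h1 : b ^ 2 ^ e = 1 := by simpa using congrArg Subtype.val he
          rw [← h1, ← zpow_natCast]; push_cast; rfl
        obtain ⟨u, v, huv⟩ : IsCoprime y ((2 : ℤ) ^ e) := by
          refine IsCoprime.pow_right ?_
          obtain ⟨w, rfl⟩ := hy
          exact ⟨1, -w, by ring⟩
        have hb2y : b ^ (2 * y) ∈ N := by
          have h1 : b ^ (2 * y) = (b ^ y * j⁻¹) * (j * (b ^ y * j⁻¹) * j⁻¹) * (j * j) := by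
            rw [two_mul, zpow_add]; group
          rw [h1]
          exact mul_mem (mul_mem hby (hnormS j hjS _ hby)) hjjN
        rw [show (2 : ℤ) = (2 * y) * u + (2 : ℤ) ^ e * (2 * v) by linear_combination (-2 : ℤ) * huv,
          zpow_add, zpow_mul b (2 * y), zpow_mul b ((2 : ℤ) ^ e), he', one_zpow, mul_one]
        exact zpow_mem hb2y u
      intro g hg
      obtain ⟨u, v, rfl⟩ := D.gen g hg
      have hau : a ^ u ∈ N := ⟨u, rfl⟩
      rcases Int.even_or_odd v with ⟨t, rfl⟩ | ⟨t, rfl⟩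
      · left
        refine mul_mem hau ?_
        rw [← two_mul, zpow_mul]
        exact zpow_mem hb2 t
      · right
        obtain ⟨w, hw⟩ := hy
        have hbj : b * j⁻¹ ∈ N := by
          have : b * j⁻¹ = ((b ^ (2 : ℤ)) ^ w)⁻¹ * (b ^ y * j⁻¹) := by
            rw [hw, zpow_add, zpow_mul, zpow_one]; group
          rw [this]
          exact mul_mem (inv_mem (zpow_mem hb2 w)) hby
        rw [zpow_add, zpow_one, zpow_mul,
          show a ^ u * ((b ^ (2 : ℤ)) ^ t * b) * j⁻¹ = a ^ u * (b ^ (2 : ℤ)) ^ t * (b * j⁻¹) by group]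
        exact mul_mem (mul_mem hau (zpow_mem hb2 t)) hbj
  -- structure
  have hclos : Subgroup.closure {a, j} = S := by
    refine le_antisymm ((Subgroup.closure_le _).2 (by
      rintro x (rfl | rfl)
      · exact D.a_mem
      · exact hjS)) fun g hg => ?_
    have hNc : N ≤ Subgroup.closure {a, j} := Subgroup.zpowers_le.2 (Subgroup.subset_closure (by simp))
    have hjc : j ∈ Subgroup.closure {a, j} := Subgroup.subset_closure (by simp)
    rcases hSdec g hg with h | h
    · exact hNc h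
    · simpa using mul_mem (hNc h) hjc
  have hanorm : j ∉ Subgroup.zpowers a := hjN
  rcases eq_or_lt_of_le hs1 with hs' | hs'
  · -- four group
    have hord : orderOf i = 2 := by
      have h1 : orderOf i ∣ 2 ^ s := hs ▸ Nat.card_zpowers a ▸ Subgroup.orderOf_dvd_natCard _ hiN
      rw [← hs', pow_one] at h1
      rcases hshape' with ⟨h, -⟩ | ⟨h, -⟩
      · exact h
      · rw [h] at h1; norm_num at h1
    have hjj : j * j = 1 := by
      rcases hshape' with ⟨-, h⟩ | ⟨h, -⟩
      · exact h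
      · omega
    have hia : i = a := by
      obtain ⟨m, hm⟩ := Subgroup.mem_zpowers_iff.1 hiN
      have haa : a ^ (2 : ℤ) = 1 := by rw [hpow, ← hs', pow_one]
      rcases Int.even_or_odd m with ⟨t, rfl⟩ | ⟨t, rfl⟩
      · rw [← two_mul, zpow_mul, haa, one_zpow] at hm
        rw [← hm, orderOf_one] at hord
        omega
      · rw [zpow_add, zpow_one, zpow_mul, haa, one_zpow, one_mul] at hm
        exact hm.symm
    haveI : NeZero (2 : ℕ) := ⟨by norm_num⟩
    obtain ⟨f, hf, hfr⟩ := CfsgLib.FusionTwo.exists_dihedral_hom (m := 2) (a := a) (b := j)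
      (by rw [hs, ← hs', pow_one]) hjj (by rw [← hia]; exact hji') hanorm
    exact Or.inl ⟨2, le_rfl, ⟨((MonoidHom.ofInjective hf).trans (MulEquiv.subgroupCongr (hfr.trans hclos))).symm⟩⟩
  have hrodd : Odd r := by
    rw [← Int.not_even_iff_odd]
    rintro ⟨q, rfl⟩
    have h1 : j * a ^ ((2 : ℤ) ^ (s - 1)) * j⁻¹ = 1 := by
      rw [hjconj, hpow]
      refine ⟨q, ?_⟩
      rw [show (2 : ℤ) ^ s = 2 ^ (s - 1) * 2 by rw [← pow_succ, Nat.sub_add_cancel hs1]]
      ring
    rw [conj_eq_one_iff, hpow] at h1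
    have := (pow_dvd_pow_iff (a := (2 : ℤ)) (by norm_num) (by
      rw [Int.isUnit_iff]; norm_num)).1 h1
    omega
  have hr4 : ¬ (4 : ℤ) ∣ r - 1 := by
    intro h
    have hn := hfix (a ^ ((2 : ℤ) ^ (s - 2))) (zpow_mem (Subgroup.mem_zpowers a) _) (by
      rw [hjconj, eq_comm, ← mul_inv_eq_one, ← zpow_neg, ← zpow_add, hpow]
      obtain ⟨q, hq⟩ := h
      refine ⟨-q, ?_⟩
      rw [show (2 : ℤ) ^ s = 2 ^ (s - 2) * 4 by
        rw [show (4 : ℤ) = 2 ^ 2 by norm_num, ← pow_add, Nat.sub_add_cancel (show 2 ≤ s by omega)]]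
      linear_combination (-(2 : ℤ) ^ (s - 2)) * hq)
    rw [← zpow_add, hpow, ← two_mul, ← pow_succ'] at hn
    have := (pow_dvd_pow_iff (a := (2 : ℤ)) (by norm_num) (by
      rw [Int.isUnit_iff]; norm_num)).1 hn
    omega
  have hr2 : (2 : ℤ) ^ s ∣ r * r - 1 := by
    rw [← hpow, zpow_sub, zpow_one, mul_inv_eq_one]
    have h1 : (j * j) * a * (j * j)⁻¹ = a := by
      rw [hNcomm _ hjjN a (Subgroup.mem_zpowers a), mul_inv_cancel_right]
    rw [show j * j * a * (j * j)⁻¹ = j * (j * a * j⁻¹) * j⁻¹ by group, ← hr, hjconj] at h1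
    exact h1
  have hr1 : (2 : ℤ) ^ (s - 1) ∣ r + 1 := by
    obtain ⟨q, hq⟩ := hrodd
    have hqodd : Odd q := by
      rw [← Int.not_even_iff_odd]
      rintro ⟨w, rfl⟩
      exact hr4 ⟨w, by rw [hq]; ring⟩
    have h : (2 : ℤ) ^ (s - 1) * 2 ∣ (r + 1) * q * 2 := by
      rw [← pow_succ, Nat.sub_add_cancel hs1]
      convert hr2 using 1
      rw [hq]; ring
    refine IsCoprime.dvd_of_dvd_mul_right ?_ (Int.dvd_of_mul_dvd_mul_right (by norm_num) h)
    refine IsCoprime.pow_left ?_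
    obtain ⟨w, rfl⟩ := hqodd
    exact ⟨-w, 1, by ring⟩
  obtain ⟨q, hq⟩ := hr1
  have hinvol : ∀ n ∈ N, n ≠ 1 → n * n = 1 → n = a ^ ((2 : ℤ) ^ (s - 1)) := by
    intro n hn hn1 hnn
    obtain ⟨m, rfl⟩ := Subgroup.mem_zpowers_iff.1 hn
    rw [← zpow_add, hpow, ← two_mul, show (2 : ℤ) ^ s = 2 * 2 ^ (s - 1) by
      rw [← pow_succ', Nat.sub_add_cancel hs1]] at hnn
    obtain ⟨w, hw⟩ := (mul_dvd_mul_iff_left (by norm_num : (2 : ℤ) ≠ 0)).1 hnn
    rcases Int.even_or_odd w with ⟨t, rfl⟩ | ⟨t, rfl⟩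
    · exfalso
      apply hn1
      rw [hpow, hw]
      exact ⟨t, by rw [show (2 : ℤ) ^ s = 2 * 2 ^ (s - 1) by rw [← pow_succ', Nat.sub_add_cancel hs1]]; ring⟩
    · rw [hw, ← mul_inv_eq_one, ← zpow_neg, ← zpow_add, hpow]
      exact ⟨t, by rw [show (2 : ℤ) ^ s = 2 * 2 ^ (s - 1) by rw [← pow_succ', Nat.sub_add_cancel hs1]]; ring⟩
  have hjj : j * j = 1 ∨ j * j = a ^ ((2 : ℤ) ^ (s - 1)) := by
    rcases hshape' with ⟨-, h⟩ | ⟨h4', h⟩
    · exact Or.inl h
    · refine Or.inr (h ▸ hinvol _ (mul_mem hiN hiN) (fun h1 => ?_) ?_)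
      · rw [← pow_two] at h1
        have := orderOf_le_of_pow_eq_one two_pos h1
        omega
      · have h5 := pow_orderOf_eq_one i
        rw [h4'] at h5
        rw [← h5]; simp [pow_succ, mul_assoc]
  rcases Int.even_or_odd q with ⟨t, rfl⟩ | ⟨t, rfl⟩
  · -- inversion
    have hinv : j * a * j⁻¹ = a⁻¹ := by
      rw [← hr, ← zpow_neg_one, ← mul_inv_eq_one, ← zpow_neg, ← zpow_add, hpow]
      exact ⟨t, by
        rw [show (2 : ℤ) ^ s = 2 * 2 ^ (s - 1) by rw [← pow_succ', Nat.sub_add_cancel hs1]]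
        linear_combination hq⟩
    rcases hjj with h | h
    · haveI : NeZero (2 ^ s) := ⟨by positivity⟩
      obtain ⟨f, hf, hfr⟩ := CfsgLib.FusionTwo.exists_dihedral_hom (m := 2 ^ s) (a := a) (b := j) hs h hinv hanorm
      exact Or.inl ⟨2 ^ s, (show 2 ^ 1 ≤ 2 ^ s from Nat.pow_le_pow_right two_pos hs1),
        ⟨((MonoidHom.ofInjective hf).trans (MulEquiv.subgroupCongr (hfr.trans hclos))).symm⟩⟩
    · haveI : NeZero (2 ^ (s - 1)) := ⟨by positivity⟩
      obtain ⟨f, hf, hfr⟩ := CfsgLib.FusionTwo.exists_quaternion_hom (m := 2 ^ (s - 1)) (a := a) (b := j)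
        (by rw [hs, ← pow_succ', Nat.sub_add_cancel hs1])
        (by rw [pow_two, h, ← zpow_natCast]; push_cast; rfl) hinv hanorm
      exact Or.inr (Or.inr ⟨2 ^ (s - 1), (show 2 ^ 1 ≤ 2 ^ (s - 1) from Nat.pow_le_pow_right two_pos (by omega)),
        ⟨((MonoidHom.ofInjective hf).trans (MulEquiv.subgroupCongr (hfr.trans hclos))).symm⟩⟩)
  · -- semidihedral
    have hs3 : 3 ≤ s := by
      by_contra h
      have : s = 2 := by omega
      subst this
      apply hr4
      exact ⟨t, by norm_num at hq; linarith⟩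
    have hrsd : j * a * j⁻¹ = a ^ (2 ^ (s - 1) - 1) := by
      rw [← hr, ← zpow_natCast a (2 ^ (s - 1) - 1), ← mul_inv_eq_one, ← zpow_neg, ← zpow_add, hpow,
        Nat.cast_sub Nat.one_le_two_pow]
      push_cast
      exact ⟨t, by
        rw [show (2 : ℤ) ^ s = 2 * 2 ^ (s - 1) by rw [← pow_succ', Nat.sub_add_cancel hs1]]
        linear_combination hq⟩
    obtain ⟨y, hy, hyconj, hyy⟩ : ∃ y ∈ S, (y * a * y⁻¹ = a ^ (2 ^ (s - 1) - 1)) ∧ (y ≠ 1 ∧ y * y = 1) := by
      rcases hjj with h | h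
      · exact ⟨j, hjS, hrsd, fun h1 => hjN (h1 ▸ one_mem N), h⟩
      · refine ⟨a * j, mul_mem D.a_mem hjS, ?_, fun h1 => hjN ?_, ?_⟩
        · rw [show a * j * a * (a * j)⁻¹ = a * (j * a * j⁻¹) * a⁻¹ by group, hrsd]; group
        · rw [show j = a⁻¹ by exact (inv_eq_of_mul_eq_one_right h1).symm]
          exact inv_mem (Subgroup.mem_zpowers a)
        · rw [show a * j * (a * j) = a * (j * a * j⁻¹) * (j * j) by group, hrsd, h, ← zpow_natCast,
            ← zpow_one_add, ← zpow_add, hpow, Nat.cast_sub Nat.one_le_two_pow]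
          push_cast
          exact ⟨1, by rw [show (2 : ℤ) ^ s = 2 * 2 ^ (s - 1) by rw [← pow_succ', Nat.sub_add_cancel hs1]]; ring⟩
    refine Or.inr (Or.inl ⟨s, hs3, ?_, ⟨a, D.a_mem⟩, ⟨y, hy⟩, ?_, ?_, ?_⟩)
    · have hidx : (N.subgroupOf S).index = 2 := by
        rw [Subgroup.index_eq_two_iff]
        refine ⟨(⟨j, hjS⟩ : S)⁻¹, fun g => ?_⟩
        by_cases hg : (g : Ω) ∈ N
        · refine Or.inr ⟨hg, fun h => hjN ?_⟩
          have := mul_mem (inv_mem (show (g : Ω) * j⁻¹ ∈ N from h)) hg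
          simpa using this
        · exact Or.inl ⟨(hSdec g g.2).resolve_left hg, hg⟩
      rw [← (N.subgroupOf S).card_mul_index, hidx, Nat.card_congr (Subgroup.subgroupOfEquivOfLe hNS).toEquiv,
        Nat.card_zpowers, hs, pow_succ]
    · rw [← Subgroup.orderOf_coe]; exact hs
    · rw [← Subgroup.orderOf_coe]
      exact orderOf_eq_prime (by rw [pow_two]; exact hyy.2) hyy.1
    · exact Subtype.ext (by simpa using hyconj)

end CfsgLib.Fus.Supersoluble
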