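import Mathlib
import Cfsg.Agent.Fus.Supersoluble.Chain
import Cfsg.Agent.Fus.Realized
import Cfsg.Agent.SolvableStructure.Huppert
import Cfsg.Agent.Solvable.MinNormal
import Cfsg.Agent.PGroup.Normal

/-!
Every saturated system over `S` is supersoluble iff `S` is resistant and the automorphism groups of
order prime to `p` are abelian of exponent dividing `p - 1`.
-/

set_option autoImplicit false

namespace CfsgLib.Fus.Supersoluble

open Cfsg Cfsg.FusionSystem CfsgLib.Fus

variable {Ω : Type*} [Group Ω] {S : Subgroup Ω}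

/-- The fusion system realized by a homomorphism. -/
def realSystem {X : Type*} [Group X] (ι : S →* X) (hι : Function.Injective ι) :
    Cfsg.FusionSystem S where
  Hom P := {φ | ∃ (hP : P ≤ S) (hφ : ∀ x : P, φ x ∈ S),
    ∃ g : X, ∀ x : P, ι ⟨φ x, hφ x⟩ = g * ι ⟨x, hP x.2⟩ * g⁻¹}
  le_of_mem := by
    rintro P φ ⟨hP, hφ, -⟩
    exact ⟨hP, hφ⟩
  injective_of_mem := by
    rintro P φ ⟨hP, hφ, g, hg⟩ a b hab
    have h1 : (⟨φ a, hφ a⟩ : S) = ⟨φ b, hφ b⟩ := Subtype.ext hab
    have h2 := congrArg ι h1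
    rw [hg a, hg b] at h2
    exact Subtype.ext (congrArg (fun z : S => (z : Ω)) (hι (mul_left_cancel (mul_right_cancel h2))))
  conj_mem := by
    intro P g hP hg
    refine ⟨hP, fun x => S.mul_mem (S.mul_mem hg (hP x.2)) (S.inv_mem hg), ι ⟨g, hg⟩, fun x => ?_⟩
    rw [← map_inv, ← map_mul, ← map_mul]
    rfl
  comp_mem := by
    rintro P Q φ ψ ⟨hP, hφ, g, hg⟩ ⟨hQ, hψ, k, hk⟩ h
    refine ⟨hP, fun x => hψ _, k * g, fun x => ?_⟩
    show ι ⟨ψ (φ.codRestrict Q h x), _⟩ = _
    rw [hk]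
    show k * ι ⟨φ x, _⟩ * k⁻¹ = _
    rw [hg x, mul_inv_rev]
    simp only [mul_assoc]
  inv_mem := by
    rintro P φ ⟨hP, hφ, g, hg⟩
    let hiso : P ≃* φ.range := MonoidHom.ofInjective (f := φ) (by
      intro a b hab
      have h1 : (⟨φ a, hφ a⟩ : S) = ⟨φ b, hφ b⟩ := Subtype.ext hab
      have h2 := congrArg ι h1
      rw [hg a, hg b] at h2
      exact Subtype.ext (congrArg (fun z : S => (z : Ω)) (hι (mul_left_cancel (mul_right_cancel h2)))))
    refine ⟨P.subtype.comp hiso.symm.toMonoidHom, ⟨?_, fun y => hP (hiso.symm y).2, g⁻¹, fun y => ?_⟩,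
      fun x => ?_⟩
    · rintro _ ⟨x, rfl⟩
      exact hφ x
    · obtain ⟨x, rfl⟩ := hiso.surjective y
      show ι ⟨((hiso.symm (hiso x) : P) : Ω), _⟩ = g⁻¹ * ι ⟨((hiso x : φ.range) : Ω), _⟩ * g⁻¹⁻¹
      have e : ι ⟨((hiso x : φ.range) : Ω), hφ x⟩ = g * ι ⟨x, hP x.2⟩ * g⁻¹ := hg x
      rw [e]
      simp only [MulEquiv.symm_apply_apply]
      group
    · show ((hiso.symm ⟨φ x, ⟨x, rfl⟩⟩ : P) : Ω) = x
      have e : (⟨φ x, ⟨x, rfl⟩⟩ : φ.range) = hiso x := rfl
      rw [e, MulEquiv.symm_apply_apply]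

theorem realSystem_realized {X : Type*} [Group X] (ι : S →* X) (hι : Function.Injective ι) :
    (realSystem ι hι).IsRealizedBy ι :=
  ⟨hι, fun _ hP _ hφ => ⟨fun ⟨_, _, g, hg⟩ => ⟨g, hg⟩, fun ⟨g, hg⟩ => ⟨hP, hφ, g, hg⟩⟩⟩

instance finite_semidirect {N G : Type*} [Group N] [Group G] (φ : G →* MulAut N) [Finite N] [Finite G] :
    Finite (N ⋊[φ] G) :=
  Finite.of_equiv _ SemidirectProduct.equivProd.symm

theorem exists_sylow_inl {p : ℕ} [hp : Fact p.Prime] [Finite S] (hS : IsPGroup p S)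
    (H : Subgroup (MulAut S)) (hcop : (Nat.card H).Coprime p) :
    ∃ T : Sylow p (S ⋊[H.subtype] H),
      (T : Subgroup (S ⋊[H.subtype] H)) = (SemidirectProduct.inl : S →* S ⋊[H.subtype] H).range := by
  set f := (SemidirectProduct.inl : S →* S ⋊[H.subtype] H)
  have hP : IsPGroup p f.range := hS.of_equiv (MonoidHom.ofInjective SemidirectProduct.inl_injective)
  have hcard : Nat.card f.range = Nat.card S :=
    (Nat.card_congr (MonoidHom.ofInjective SemidirectProduct.inl_injective).toEquiv).symm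
  refine ⟨hP.toSylow ?_, rfl⟩
  have h := f.range.card_mul_index
  rw [hcard, SemidirectProduct.card] at h
  rw [Nat.eq_of_mul_eq_mul_left Nat.card_pos h]
  exact (Nat.Prime.coprime_iff_not_dvd hp.out).1 hcop.symm

theorem abelian_exponent_of_all {p : ℕ} [Fact p.Prime] [Finite S] (hS : IsPGroup p S)
    (hall : ∀ F : Cfsg.FusionSystem S, F.IsSaturated p → HasChain F)
    (H : Subgroup (MulAut S)) (hcop : (Nat.card H).Coprime p) :
    IsMulCommutative H ∧ ∀ h ∈ H, h ^ (p - 1) = 1 := by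
  haveI : Finite H := inferInstance
  set ι := (SemidirectProduct.inl : S →* S ⋊[H.subtype] H)
  have hι : Function.Injective ι := SemidirectProduct.inl_injective
  have hsat : (realSystem ι hι).IsSaturated p :=
    isSaturated_of_realized (realSystem_realized ι hι) (exists_sylow_inl hS H hcop)
  refine abelian_exponent hS (hall _ hsat) H (fun a ha => ?_) hcop
  refine mem_autGroup_of_mem _ ⟨le_rfl, fun x => (a x).2, SemidirectProduct.inr ⟨a, ha⟩, fun x => ?_⟩
  have := SemidirectProduct.inl_aut (φ := H.subtype) ⟨a, ha⟩ x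
  simpa using this

section Converse

variable {p : ℕ} [hp : Fact p.Prime]

/-- In `S ⋊ H` there is a normal series inside `S` with cyclic steps. -/
theorem exists_normal_series {X : Type*} [Group X] [Finite X] (T : Subgroup X) [T.Normal]
    (hT : IsPGroup p T) {H : Type*} [Group H] (j : H →* X) (hgen : ∀ x : X, ∃ t ∈ T, ∃ h, x = t * j h)
    (hab : ∀ a b : H, a * b = b * a) (hexp : ∀ a : H, a ^ (p - 1) = 1) :
    ∀ (n : ℕ) (M : Subgroup X), M.Normal → M ≤ T → Nat.card T - Nat.card M = n →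
    ∃ (m : ℕ) (f : ℕ → Subgroup X), f 0 = M ∧ f m = T ∧ (∀ i, (f i).Normal ∧ f i ≤ T) ∧
      ∀ i < m, f i ≤ f (i + 1) ∧ ∃ x ∈ T, f (i + 1) = f i ⊔ Subgroup.zpowers x := by
  intro n
  induction n using Nat.strong_induction_on with
  | _ n ih =>
  intro M hMn hMT hn
  by_cases hMT' : M = T
  · exact ⟨0, fun _ => M, rfl, hMT', fun _ => ⟨hMn, hMT⟩, fun i hi => absurd hi i.not_lt_zero⟩
  let q := QuotientGroup.mk' M
  have hqs : Function.Surjective q := QuotientGroup.mk'_surjective M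
  haveI : (T.map q).Normal := Subgroup.Normal.map inferInstance q hqs
  have hTq : IsPGroup p (T.map q) := hT.map q
  have hne : T.map q ≠ ⊥ := by
    rw [Ne, Subgroup.map_eq_bot_iff, QuotientGroup.ker_mk']
    exact fun h => hMT' (le_antisymm hMT h)
  haveI : Group.IsNilpotent (T.map q) := hTq.isNilpotent
  obtain ⟨N, r, k, hNT, hNn, hN, hmin, hNc, hr, hk, hNcard, hNexp⟩ :=
    CfsgLib.Solvable.exists_minimal_normal_elementary_le (T.map q) inferInstance hne
  have hrp : r = p := by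
    obtain ⟨e, he⟩ := IsPGroup.iff_card.1 (hTq.to_le hNT)
    exact (Nat.prime_dvd_prime_iff_eq hr hp.out).1
      (hr.dvd_of_dvd_pow (he ▸ hNcard ▸ dvd_pow_self r hk.ne'))
  subst hrp
  have hcent : N ≤ Subgroup.centralizer ((T.map q : Subgroup (X ⧸ M)) : Set (X ⧸ M)) := by
    haveI : (N ⊓ Subgroup.centralizer ((T.map q : Subgroup (X ⧸ M)) : Set (X ⧸ M))).Normal :=
      inferInstance
    rcases hmin _ this inf_le_left with h | h
    · exfalso
      refine CfsgLib.PGroup.inf_center_ne_bot hTq (N.subgroupOf (T.map q)) ?_ ?_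
      · rw [Ne, Subgroup.subgroupOf_eq_bot]
        exact fun hd => hN (le_bot_iff.1 (hd le_rfl hNT))
      · rw [eq_bot_iff]
        rintro z ⟨hz, hzc⟩
        have hz' : (z : X ⧸ M) ∈ N ⊓ Subgroup.centralizer ((T.map q : Subgroup (X ⧸ M)) : Set (X ⧸ M)) :=
          ⟨hz, Subgroup.mem_centralizer_iff.2 fun t ht =>
            congrArg Subtype.val (Subgroup.mem_center_iff.1 hzc ⟨t, ht⟩)⟩
        rw [h, Subgroup.mem_bot] at hz'
        exact Subgroup.mem_bot.2 (Subtype.ext hz')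
    · exact h ▸ inf_le_right
  let ψ : H →* MulAut N := (MulAut.conjNormal (H := N)).comp (q.comp j)
  have hψ : ∀ x : X ⧸ M, ∃ h, MulAut.conjNormal (H := N) x = ψ h := by
    intro x
    obtain ⟨y, rfl⟩ := hqs x
    obtain ⟨t, ht, h, rfl⟩ := hgen y
    refine ⟨h, ?_⟩
    have h1 : MulAut.conjNormal (H := N) (q t) = 1 := by
      ext z
      rw [MulAut.conjNormal_apply, Subgroup.mem_centralizer_iff.1 (hcent z.2) _ ⟨t, ht, rfl⟩,
        mul_inv_cancel_right]
      rfl
    rw [map_mul, map_mul, h1, one_mul]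
    rfl
  have hNp : Nat.card N = r := CfsgLib.Supersolvable.card_eq_prime_of_action hN hmin hNc hNexp
    (fun g g' => by
      obtain ⟨a, ha⟩ := hψ g
      obtain ⟨b, hb⟩ := hψ g'
      rw [ha, hb, commute_iff_eq, ← map_mul, ← map_mul, hab])
    (fun g => by
      obtain ⟨a, ha⟩ := hψ g
      rw [ha, ← map_pow, hexp, map_one])
  obtain ⟨v, hv, hv1⟩ := (Subgroup.bot_or_exists_ne_one N).resolve_left hN
  have hvgen : Subgroup.zpowers v = N := Subgroup.eq_of_le_of_card_ge (Subgroup.zpowers_le.2 hv) (by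
    rw [hNp, Nat.card_zpowers, orderOf_eq_prime (hNexp v hv) hv1])
  obtain ⟨x, hx, hxv⟩ := hNT hv
  set M' := N.comap q with hM'
  have hM'T : M' ≤ T := by
    refine (Subgroup.comap_mono hNT).trans ?_
    rw [Subgroup.comap_map_eq, QuotientGroup.ker_mk', sup_le_iff]
    exact ⟨le_rfl, hMT⟩
  have hM'eq : M' = M ⊔ Subgroup.zpowers x := by
    rw [hM', ← hvgen, ← hxv, ← MonoidHom.map_zpowers, Subgroup.comap_map_eq, QuotientGroup.ker_mk',
      sup_comm]
  have hlt : M < M' := by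
    refine lt_of_le_of_ne (hM'eq ▸ le_sup_left) fun h => hv1 ?_
    have : x ∈ M := h ▸ (show x ∈ M' by rw [hM'eq]; exact Subgroup.mem_sup_right (Subgroup.mem_zpowers x))
    rw [← hxv]
    exact (QuotientGroup.eq_one_iff x).2 this
  have hcard : Nat.card T - Nat.card M' < n := by
    have h1 : Nat.card M < Nat.card M' := lt_of_le_of_ne (Subgroup.card_le_of_le hlt.le)
      fun h => hlt.ne (Subgroup.eq_of_le_of_card_ge hlt.le h.ge)
    have h2 : Nat.card M' ≤ Nat.card T := Subgroup.card_le_of_le hM'T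
    omega
  obtain ⟨m, f, hf0, hfm, hfn, hfs⟩ := ih _ hcard M' (Subgroup.Normal.comap hNn q) hM'T rfl
  refine ⟨m + 1, fun i => if i = 0 then M else f (i - 1), by simp, by simp [hfm], fun i => ?_, fun i hi => ?_⟩
  · simp only
    split_ifs
    · exact ⟨hMn, hMT⟩
    · exact hfn _
  · rcases i with _ | i
    · simp only [↓reduceIte, Nat.zero_add, Nat.sub_self, hf0]
      exact ⟨hlt.le, x, hx, hM'eq⟩
    · simpa using hfs i (by omega)

theorem hasChain_of_resistant [Finite S] (hS : IsPGroup p S) {F : Cfsg.FusionSystem S}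
    (hF : F.IsSaturated p) (hN : F.IsNormal S)
    (hab : ∀ H : Subgroup (MulAut S), (Nat.card H).Coprime p →
      IsMulCommutative H ∧ ∀ h ∈ H, h ^ (p - 1) = 1) : HasChain F := by
  classical
  obtain ⟨-, R, hR⟩ := (fullyNormalized_props hS hF (isFullyNormalized_top F)).1
  rw [← inn_eq_autInducedBy_self] at hR
  haveI : ((Cfsg.Inn S).subgroupOf (F.autGroup S)).Normal := inferInstance
  obtain ⟨H0, hH0⟩ := Subgroup.exists_right_complement'_of_coprime
    (N := (Cfsg.Inn S).subgroupOf (F.autGroup S)) (by rw [← hR]; exact R.card_coprime_index)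
  set H := H0.map (F.autGroup S).subtype with hH
  have hHcop : (Nat.card H).Coprime p := by
    rw [hH, Subgroup.card_map_of_injective (F.autGroup S).subtype_injective, ← hH0.symm.index_eq_card, ← hR]
    exact ((Nat.Prime.coprime_iff_not_dvd hp.out).2 R.not_dvd_index).symm
  obtain ⟨hHab, hHexp⟩ := hab H hHcop
  set ι := (SemidirectProduct.inl : S →* S ⋊[H.subtype] H)
  haveI : ι.range.Normal := by
    rw [SemidirectProduct.range_inl_eq_ker_rightHom]; infer_instance
  have hT : IsPGroup p ι.range := hS.of_equiv (MonoidHom.ofInjective SemidirectProduct.inl_injective)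
  obtain ⟨m, f, hf0, hfm, hfn, hfs⟩ := exists_normal_series ι.range hT
    (SemidirectProduct.inr : H →* S ⋊[H.subtype] H)
    (fun x => ⟨_, ⟨x.left, rfl⟩, x.right, (SemidirectProduct.inl_left_mul_inr_right x).symm⟩)
    (fun a b => hHab.is_comm.comm a b) (fun a => Subtype.ext (by simpa using hHexp a a.2))
    _ ⊥ inferInstance bot_le rfl
  let d : ℕ → Subgroup Ω := fun i => ((f i).comap ι).map S.subtype
  refine ⟨m, fun i => d i, ?_, ?_, fun i => ⟨Subgroup.map_subtype_le _, ?_⟩, fun i => ?_⟩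
  · show d 0 = ⊥
    simp only [d, hf0, Subgroup.map_eq_bot_iff_of_injective _ S.subtype_injective,
      MonoidHom.comap_bot, MonoidHom.ker_eq_bot_iff]
    exact SemidirectProduct.inl_injective
  · show d m = S
    simp only [d, hfm]
    rw [show ι.range.comap ι = ⊤ from eq_top_iff.2 fun s _ => ⟨s, rfl⟩, ← MonoidHom.range_eq_map,
      Subgroup.range_subtype]
  · intro R' hR' φ hφ x
    obtain ⟨ψ, hψ, hψe, -⟩ := hN.2 R' φ hφ
    have hψ' := restrict_mem F hψ (le_sup_right : S ≤ R' ⊔ S)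
    have hr : (ψ.comp (Subgroup.inclusion (le_sup_right : S ≤ R' ⊔ S))).range = S :=
      Subgroup.eq_of_le_of_card_ge (range_le F hψ') (Nat.card_congr
        (MonoidHom.ofInjective (F.injective_of_mem hψ')).toEquiv).le
    set α : MulAut S := isoOf hψ' hr
    obtain ⟨⟨⟨i', hi'⟩, ⟨h, hh⟩⟩, hih, -⟩ := hH0.existsUnique ⟨α, isoOf_mem_autGroup hψ' hr⟩
    obtain ⟨s, hs⟩ : ∃ s : S, MulAut.conj s = (i' : MulAut S) := hi'
    have hαeq : α = MulAut.conj s * (h : MulAut S) := by
      rw [hs]; exact (congrArg Subtype.val hih).symm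
    obtain ⟨y, hy, hyx⟩ := hR' x.2
    have hφx : φ x = ((α y : S) : Ω) := by
      rw [← hψe x]
      exact congrArg ψ (Subtype.ext hyx.symm)
    rw [hφx]
    refine ⟨α y, ?_, rfl⟩
    show ι (α y) ∈ f i
    have e1 := SemidirectProduct.inl_aut (φ := H.subtype) ⟨(h : MulAut S), ⟨h, hh, rfl⟩⟩ y
    rw [hαeq, MulAut.mul_apply, MulAut.conj_apply, map_mul, map_mul, map_inv]
    refine (hfn i).1.conj_mem _ ?_ _
    have e2 : (H.subtype ⟨(h : MulAut S), ⟨h, hh, rfl⟩⟩ : MulAut S) y = (h : MulAut S) y := rfl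
    rw [← e2, e1, map_inv]
    exact (hfn i).1.conj_mem _ hy _
  · obtain ⟨hle, z, ⟨w, rfl⟩, he⟩ := hfs i i.2
    refine ⟨Subgroup.map_mono (Subgroup.comap_mono hle), w, w.2, ?_⟩
    show d (i + 1) = d i ⊔ Subgroup.zpowers (w : Ω)
    simp only [d]
    rw [he, ← S.coe_subtype, ← MonoidHom.map_zpowers, ← MonoidHom.map_zpowers, ← Subgroup.map_sup]
    congr 1
    refine Subgroup.map_injective (f := ι) SemidirectProduct.inl_injective ?_
    rw [Subgroup.map_sup, Subgroup.map_comap_eq_self, Subgroup.map_comap_eq_self (hfn i).2]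
    exact sup_le (hfn i).2 (Subgroup.map_le_range _ _)

end Converse

end CfsgLib.Fus.Supersoluble
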